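import Cfsg.Agent.Lib.Helper7.BlockCover4
import Cfsg.Agent.Lib.Helper9.PGrp

set_option autoImplicit false
set_option linter.style.haveILetI false
set_option linter.unusedSectionVars false
open Cfsg
open scoped ComplexConjugate

namespace Cfsg.Agent.Lib.Helper7

universe u
variable {G : Type u} [Group G] {M : Ideal AlgInt} {p : ℕ}

/-- F1: a Sylow subgroup `D` of `C_{N(D)}(y)` is a maximal `p`-subgroup of `C_G(y)`. -/
theorem eq_of_sylow_normalizer [Finite G] [Fact p.Prime] {D H : Subgroup G}
    (hH : H = Subgroup.normalizer (D : Set G)) {y : H}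
    (S : Sylow p (Subgroup.centralizer ({y} : Set H)))
    (hS : D.subgroupOf H = (S : Subgroup (Subgroup.centralizer ({y} : Set H))).map
      (Subgroup.centralizer ({y} : Set H)).subtype)
    {Q : Subgroup G} (hQ : IsPGroup p Q) (hDQ : D ≤ Q)
    (hQy : Q ≤ Subgroup.centralizer ({(y : G)} : Set G)) : Q = D := by
  by_contra hne
  obtain ⟨v, hvQ, hvN, hvD⟩ := Cfsg.Agent.Lib.Helper9.normalizer_growth hQ hDQ (Ne.symm hne)
  have hvH : v ∈ H := hH ▸ hvN
  have hle : Q.subgroupOf H ≤ Subgroup.centralizer ({y} : Set H) := by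
    intro w hw
    have h1 := hQy (Subgroup.mem_subgroupOf.1 hw)
    rw [Subgroup.mem_centralizer_singleton_iff] at h1 ⊢
    exact Subtype.ext h1
  have hp1 : IsPGroup p (Q.subgroupOf H) := hQ.comap_subtype
  have hp2 : IsPGroup p ((Q.subgroupOf H).subgroupOf (Subgroup.centralizer ({y} : Set H))) :=
    hp1.comap_subtype
  have hSle : (S : Subgroup (Subgroup.centralizer ({y} : Set H)))
      ≤ (Q.subgroupOf H).subgroupOf (Subgroup.centralizer ({y} : Set H)) := by
    intro s hs
    rw [Subgroup.mem_subgroupOf, Subgroup.mem_subgroupOf]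
    have h1 : (s : H) ∈ D.subgroupOf H := by
      rw [hS]; exact ⟨s, hs, rfl⟩
    exact hDQ (Subgroup.mem_subgroupOf.1 h1)
  have hmax := S.is_maximal' hp2 hSle
  have hv1 : (⟨v, hvH⟩ : H) ∈ Q.subgroupOf H := Subgroup.mem_subgroupOf.2 hvQ
  have hv2 : (⟨⟨v, hvH⟩, hle hv1⟩ : Subgroup.centralizer ({y} : Set H))
      ∈ (Q.subgroupOf H).subgroupOf (Subgroup.centralizer ({y} : Set H)) :=
    Subgroup.mem_subgroupOf.2 hv1
  rw [hmax] at hv2
  have hv3 : (⟨v, hvH⟩ : H) ∈ D.subgroupOf H := by
    rw [hS]; exact ⟨_, hv2, rfl⟩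
  exact hvD (Subgroup.mem_subgroupOf.1 hv3)

theorem le_centralizer_of_sylow {D H : Subgroup G} (hDH : D ≤ H) {y : H}
    (S : Subgroup (Subgroup.centralizer ({y} : Set H)))
    (hS : D.subgroupOf H = S.map (Subgroup.centralizer ({y} : Set H)).subtype) :
    D ≤ Subgroup.centralizer ({(y : G)} : Set G) := by
  intro d hd
  have h1 : (⟨d, hDH hd⟩ : H) ∈ D.subgroupOf H := Subgroup.mem_subgroupOf.2 hd
  rw [hS] at h1
  obtain ⟨s, _, hs⟩ := h1
  have h2 := s.2
  rw [Subgroup.mem_centralizer_singleton_iff] at h2 ⊢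
  have h3 : (s : H) = ⟨d, hDH hd⟩ := hs
  rw [h3] at h2
  exact congrArg Subtype.val h2

/-- F2 -/
theorem exists_sylow_of_sylow_normalizer [Finite G] [Fact p.Prime] {D H : Subgroup G}
    (hD : IsPGroup p D) (hH : H = Subgroup.normalizer (D : Set G)) {y : H}
    (S : Sylow p (Subgroup.centralizer ({y} : Set H)))
    (hS : D.subgroupOf H = (S : Subgroup (Subgroup.centralizer ({y} : Set H))).map
      (Subgroup.centralizer ({y} : Set H)).subtype) :
    ∃ T : Sylow p (Subgroup.centralizer ({(y : G)} : Set G)),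
      (T : Subgroup (Subgroup.centralizer ({(y : G)} : Set G))).map
        (Subgroup.centralizer ({(y : G)} : Set G)).subtype = D := by
  have hDH : D ≤ H := hH ▸ le_normalizer' D
  obtain ⟨T, hT⟩ := exists_sylow_map_ge _ D hD (le_centralizer_of_sylow hDH _ hS)
  exact ⟨T, eq_of_sylow_normalizer hH S hS (T.2.map _) hT (map_subtype_le _ _)⟩

/-- F3: fusion of elements of `C(D)` is controlled by `N(D)`. -/
theorem exists_normalizer_conj [Finite G] [Fact p.Prime] {D : Subgroup G} (hD : IsPGroup p D)
    {y : G} (T : Sylow p (Subgroup.centralizer ({y} : Set G)))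
    (hT : (T : Subgroup (Subgroup.centralizer ({y} : Set G))).map
        (Subgroup.centralizer ({y} : Set G)).subtype = D)
    {h : G} (hh : h ∈ Subgroup.centralizer (D : Set G)) (hc : IsConj y h) :
    ∃ n ∈ Subgroup.normalizer (D : Set G), n * y * n⁻¹ = h := by
  obtain ⟨g, hg⟩ := isConj_iff.1 hc
  have h1 : D.map (MulAut.conj g⁻¹).toMonoidHom ≤ Subgroup.centralizer ({y} : Set G) := by
    intro w hw
    rw [mem_map_conj, inv_inv] at hw
    have h2 := Subgroup.mem_centralizer_iff.1 hh _ hw
    rw [Subgroup.mem_centralizer_singleton_iff]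
    rw [← hg] at h2
    have e1 : w * y = g⁻¹ * (g * w * g⁻¹ * (g * y * g⁻¹)) * g := by group
    have e2 : y * w = g⁻¹ * (g * y * g⁻¹ * (g * w * g⁻¹)) * g := by group
    rw [e1, e2, h2]
  obtain ⟨c, hc, hle⟩ := exists_conj_sylow_map_ge _ T _ (isPGroup_map_conj hD g⁻¹) h1
  rw [hT] at hle
  have heq : D.map (MulAut.conj g⁻¹).toMonoidHom = D.map (MulAut.conj c).toMonoidHom := by
    apply Subgroup.eq_of_le_of_card_ge hle
    rw [Subgroup.card_map_of_injective (MulAut.conj c).injective,
      Subgroup.card_map_of_injective (MulAut.conj g⁻¹).injective]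
  refine ⟨g * c, ?_, ?_⟩
  · rw [Subgroup.mem_set_normalizer_iff'']
    intro w
    have h3 : w ∈ D.map (MulAut.conj (g * c)).toMonoidHom ↔ w ∈ D := by
      have e : D.map (MulAut.conj (g * c)).toMonoidHom
          = (D.map (MulAut.conj c).toMonoidHom).map (MulAut.conj g).toMonoidHom := by
        rw [Subgroup.map_map]
        congr 1
        ext z
        simp [mul_assoc]
      rw [e, ← heq, Subgroup.map_map]
      have e2 : (MulAut.conj g).toMonoidHom.comp (MulAut.conj g⁻¹).toMonoidHom
          = MonoidHom.id G := by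
        ext z
        simp [mul_assoc]
      rw [e2, Subgroup.map_id]
    rw [mem_map_conj] at h3
    exact h3.symm
  · rw [Subgroup.mem_centralizer_singleton_iff] at hc
    rw [← hg]
    have : g * c * y * (g * c)⁻¹ = g * (c * y * c⁻¹) * g⁻¹ := by group
    rw [this, hc]
    group

section fmt
variable [Fintype G] {D H : Subgroup G} [Fintype H]

/-- F5: on a class of `N(D)` with defect group `D`, the induced central character is the central
character. -/
theorem induced_congr_centralChar (hM : IsPModular p M) (hD : IsPGroup p D)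
    (hH : H = Subgroup.normalizer (D : Set G)) {y : H}
    (S : Sylow p (Subgroup.centralizer ({y} : Set H)))
    (hS : D.subgroupOf H = (S : Subgroup (Subgroup.centralizer ({y} : Set H))).map
      (Subgroup.centralizer ({y} : Set H)).subtype) (ξ : IrrCharacter H) :
    MemLocalIdeal M (inducedCentralChar H (ξ : H → ℂ) (y : G) - centralChar (ξ : H → ℂ) y) := by
  classical
  haveI := hM.2.1.isPrime
  haveI : Fact p.Prime := ⟨hM.1⟩
  have hDH : D ≤ H := hH ▸ le_normalizer' D
  have hHN : H ≤ Subgroup.normalizer (D : Set G) := hH.le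
  obtain ⟨T, hT⟩ := exists_sylow_of_sylow_normalizer hD hH S hS
  have hyC : (y : G) ∈ Subgroup.centralizer (D : Set G) := by
    rw [Subgroup.mem_centralizer_iff]
    intro d hd
    have := le_centralizer_of_sylow hDH _ hS hd
    rw [Subgroup.mem_centralizer_singleton_iff] at this
    exact this
  have hc : IsClassFunction G (fun x => if IsConj (y : G) x then (1 : ℂ) else 0) :=
    isClassFunction_indicator (y : G)
  have hcS : ∀ g, MemLocalRing M ((fun x => if IsConj (y : G) x then (1 : ℂ) else 0) g) := by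
    intro g
    simp only
    split_ifs
    exacts [memLocalRing_one, memLocalRing_zero]
  have h1 := Om_resH_sub_brH hM hD hDH hHN hc hcS ξ
  have h2 : brH D H (fun x => if IsConj (y : G) x then (1 : ℂ) else 0)
      = fun x : H => if IsConj y x then (1 : ℂ) else 0 := by
    funext h
    simp only [brH]
    by_cases hh : IsConj y h
    · obtain ⟨n, hn⟩ := isConj_iff.1 hh
      have hG : (n : G) * y * (n : G)⁻¹ = h := by
        have := congrArg Subtype.val hn
        simpa using this
      have h3 : (h : G) ∈ Subgroup.centralizer (D : Set G) := by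
        rw [← hG]
        exact (conj_mem_centralizer_iff (hHN n.2) (y : G)).2 hyC
      have h4 : IsConj (y : G) (h : G) := isConj_iff.2 ⟨(n : G), hG⟩
      rw [if_pos h3, if_pos hh, if_pos h4]
    · rw [if_neg hh]
      by_cases h3 : (h : G) ∈ Subgroup.centralizer (D : Set G)
      · rw [if_pos h3, if_neg]
        intro h4
        obtain ⟨n, hn, hn2⟩ := exists_normalizer_conj hD T hT h3 h4
        apply hh
        exact isConj_iff.2 ⟨⟨n, hH ▸ hn⟩, Subtype.ext (by simpa using hn2)⟩
      · rw [if_neg h3]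
  rw [h2, ← inducedCentralChar_eq_Om, ← centralChar_eq_Om] at h1
  exact h1

/-- First main theorem, part (i). -/
theorem defectGroup_of_induced_normalizer (hM : IsPModular p M) (hD : IsPGroup p D)
    (hH : H = Subgroup.normalizer (D : Set G)) {b : Set (IrrCharacter H)}
    (hdef : IsDefectGroup p M b (D.subgroupOf H)) {B : Set (IrrCharacter G)}
    (hind : IsInducedBlock M H b B) : IsDefectGroup p M B D := by
  classical
  haveI := hM.2.1.isPrime
  haveI : Fact p.Prime := ⟨hM.1⟩
  have hDH : D ≤ H := hH ▸ le_normalizer' D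
  have hHN : H ≤ Subgroup.normalizer (D : Set G) := hH.le
  obtain ⟨hb, hB, hcong⟩ := id hind
  obtain ⟨y, hy, S, hS⟩ := hdef
  obtain ⟨T, hT⟩ := exists_sylow_of_sylow_normalizer hD hH S hS
  obtain ⟨E, hE, hDE⟩ := le_defectGroup_of_induced hM hD hDH hHN hind
  obtain ⟨χ, hχ⟩ := isPBlock_nonempty hB
  obtain ⟨ξ, hξ⟩ := isPBlock_nonempty hb
  have h1 : ¬ MemLocalIdeal M (centralChar (χ : G → ℂ) (y : G)) := by
    have e1 := memLocalIdeal_sub_comm (hcong ξ hξ χ hχ (y : G))
    have e2 := induced_congr_centralChar hM hD hH S hS ξ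
    have e3 := memLocalIdeal_add e1 e2
    rw [sub_add_sub_cancel] at e3
    exact not_memLocalIdeal_of_sub e3 (hy.2.2 ξ hξ)
  have hEp := isPGroup_of_defectGroup hM hB hE
  obtain ⟨g0, hg0, Q, hQ⟩ := id hE
  obtain ⟨t, ht⟩ := minmax_le hM hB (h := (y : G)) (k := g0) ⟨χ, hχ, h1⟩ hg0.2.1 E hEp
    (hQ ▸ map_subtype_le _ _)
  have h2 := Subgroup.card_dvd_of_le ht
  rw [Subgroup.card_map_of_injective (MulAut.conj t).injective] at h2
  obtain ⟨k, hk⟩ := IsPGroup.iff_card.1 hEp
  have h3 : Nat.card D = p ^ (Nat.card (Subgroup.centralizer ({(y : G)} : Set G))).factorization p := by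
    rw [← hT, Subgroup.card_map_of_injective (Subgroup.subtype_injective _)]
    exact T.card_eq_multiplicity
  have h4 : Nat.card E ≤ Nat.card D := by
    rw [hk] at h2 ⊢
    rw [h3]
    exact Nat.pow_le_pow_right hM.1.pos
      ((Nat.Prime.pow_dvd_iff_le_factorization hM.1 Nat.card_pos.ne').1 h2)
  have h5 : D = E := Subgroup.eq_of_le_of_card_ge hDE h4
  rw [h5]
  exact hE

/-- First main theorem, uniqueness. -/
theorem eq_of_induced_normalizer (hM : IsPModular p M) (hD : IsPGroup p D)
    (hH : H = Subgroup.normalizer (D : Set G)) {b b' : Set (IrrCharacter H)}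
    (hdef : IsDefectGroup p M b (D.subgroupOf H)) (hdef' : IsDefectGroup p M b' (D.subgroupOf H))
    {B : Set (IrrCharacter G)} (hind : IsInducedBlock M H b B) (hind' : IsInducedBlock M H b' B) :
    b = b' := by
  classical
  haveI := hM.2.1.isPrime
  haveI : Fact p.Prime := ⟨hM.1⟩
  haveI := Fintype.ofFinite (ConjClasses H)
  have hDH : D ≤ H := hH ▸ le_normalizer' D
  have hHN : H ≤ Subgroup.normalizer (D : Set G) := hH.le
  haveI := normal_subgroupOf_of_le_normalizer hHN
  have hD' : IsPGroup p (D.subgroupOf H) := hD.comap_subtype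
  obtain ⟨hb, hB, hcong⟩ := id hind
  obtain ⟨hb', _, hcong'⟩ := id hind'
  obtain ⟨χ, hχ⟩ := isPBlock_nonempty hB
  obtain ⟨ξ, hξ⟩ := isPBlock_nonempty hb
  obtain ⟨ξ', hξ'⟩ := isPBlock_nonempty hb'
  -- vanishing of central characters on classes of small defect
  have hsmall : ∀ (b₀ : Set (IrrCharacter H)), IsPBlock M b₀ → IsDefectGroup p M b₀ (D.subgroupOf H) →
      ∀ ξ₀ ∈ b₀, ∀ y : H, ¬ MemLocalIdeal M (centralChar (ξ₀ : H → ℂ) y) →
      Nat.card (D.subgroupOf H) ∣ Nat.card (Subgroup.centralizer ({y} : Set H)) := by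
    intro b₀ hb₀ hdef₀ ξ₀ hξ₀ y hy
    obtain ⟨g0, hg0, Q, hQ⟩ := id hdef₀
    obtain ⟨t, ht⟩ := minmax_le hM hb₀ (h := y) (k := g0) ⟨ξ₀, hξ₀, hy⟩ hg0.2.1 (D.subgroupOf H) hD'
      (hQ ▸ map_subtype_le _ _)
    have h2 := Subgroup.card_dvd_of_le ht
    rwa [Subgroup.card_map_of_injective (MulAut.conj t).injective] at h2
  have hcl := isClassFunction_blockCoeff b
  have h1 : MemLocalIdeal M (Om (blockCoeff b) ξ - Om (blockCoeff b) ξ') := by
    rw [Om_eq_sum_centralChar hcl, Om_eq_sum_centralChar hcl, ← Finset.sum_sub_distrib]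
    apply memLocalIdeal_sum
    intro L _
    rw [← mul_sub]
    by_cases ha : MemLocalIdeal M (blockCoeff b L.out)
    · exact memLocalIdeal_mul_right ha
        (memLocalRing_sub (memLocalRing_centralChar ξ _) (memLocalRing_centralChar ξ' _))
    · apply memLocalIdeal_mul_left (osima hb _)
      obtain ⟨S⟩ : Nonempty (Sylow p (Subgroup.centralizer ({L.out} : Set H))) := inferInstance
      obtain ⟨D₂, hD₂, hle⟩ := exists_defectGroup_ge_of_blockCoeff hM hb ha _ (S.2.map _)
        (map_subtype_le _ (S : Subgroup (Subgroup.centralizer ({L.out} : Set H))))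
      have hD₂eq : D.subgroupOf H = D₂ := by
        apply Subgroup.eq_of_le_of_card_ge (normal_le_defectGroup hM hb hD₂ _ hD')
        rw [card_defectGroup hM hb hD₂, card_defectGroup hM hb hdef]
      rw [← hD₂eq] at hle
      by_cases heq : D.subgroupOf H = (S : Subgroup (Subgroup.centralizer ({L.out} : Set H))).map
          (Subgroup.centralizer ({L.out} : Set H)).subtype
      · have e1 := memLocalIdeal_sub_comm (induced_congr_centralChar hM hD hH S heq ξ)
        have e2 := hcong ξ hξ χ hχ (L.out : G)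
        have e3 := memLocalIdeal_sub_comm (hcong' ξ' hξ' χ hχ (L.out : G))
        have e4 := induced_congr_centralChar hM hD hH S heq ξ'
        have e5 := memLocalIdeal_add (memLocalIdeal_add e1 e2) (memLocalIdeal_add e3 e4)
        rw [sub_add_sub_cancel, sub_add_sub_cancel, sub_add_sub_cancel] at e5
        exact e5
      · have hlt : ¬ Nat.card (D.subgroupOf H) ∣ Nat.card (Subgroup.centralizer ({L.out} : Set H)) := by
          intro hdvd
          apply heq
          symm
          apply Subgroup.eq_of_le_of_card_ge hle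
          rw [Subgroup.card_map_of_injective (Subgroup.subtype_injective _), S.card_eq_multiplicity]
          obtain ⟨k, hk⟩ := IsPGroup.iff_card.1 hD'
          rw [hk] at hdvd ⊢
          exact Nat.pow_le_pow_right hM.1.pos
            ((Nat.Prime.pow_dvd_iff_le_factorization hM.1 Nat.card_pos.ne').1 hdvd)
        have z1 : MemLocalIdeal M (centralChar (ξ : H → ℂ) L.out) := by
          by_contra hcon
          exact hlt (hsmall b hb hdef ξ hξ _ hcon)
        have z2 : MemLocalIdeal M (centralChar (ξ' : H → ℂ) L.out) := by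
          by_contra hcon
          exact hlt (hsmall b' hb' hdef' ξ' hξ' _ hcon)
        exact memLocalIdeal_sub z1 z2
  rw [Om_blockCoeff, Set.indicator_of_mem hξ] at h1
  have h2 : ξ' ∈ b := by
    by_contra hcon
    rw [Set.indicator_of_notMem hcon, sub_zero] at h1
    exact not_memLocalIdeal_one h1
  rw [isPBlock_eq_blockOf hb h2, isPBlock_eq_blockOf hb' hξ']

end fmt

end Cfsg.Agent.Lib.Helper7
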