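import Cfsg.Agent.Lib.Helper7.BlockFongGen
import Cfsg.Agent.Lib.Helper7.BlockFMT
import Cfsg.Agent.Lib.Helper7.BlockCover3

set_option autoImplicit false
set_option linter.style.haveILetI false
set_option linter.unusedSectionVars false
open Cfsg
open scoped ComplexConjugate

namespace Cfsg.Agent.Lib.Helper7

universe u
variable {M : Ideal AlgInt} {p : ℕ}
variable {G : Type u} [Group G]

theorem covers_of_isInducedBlock [Fintype G] (N : Subgroup G) [N.Normal] [Fintype N] [M.IsPrime]
    {b : Set (IrrCharacter N)} {B : Set (IrrCharacter G)} (hind : IsInducedBlock M N b B) :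
    Covers N B b :=
  covers_of_congr N hind.2.1 hind.1
    (fun χ hχ θ hθ n => memLocalIdeal_sub_comm (hind.2.2 θ hθ χ hχ n))

section efm
variable [Finite G] {P K L : Subgroup G}

theorem exists_tower_induced (hM : IsPModular p M) (hP : IsPGroup p P) (hPK : P ≤ K)
    (hCK : Subgroup.centralizer (P : Set G) ≤ K) (hKL : K ≤ L)
    (hLN : L ≤ Subgroup.normalizer (P : Set G)) {b : Set (IrrCharacter K)} (hb : IsPBlock M b) :
    ∃ β : Set (IrrCharacter L), IsInducedBlock M (K.subgroupOf L) (towerBlock hKL b) β := by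
  classical
  haveI : Fintype L := Fintype.ofFinite _
  haveI : Fintype (K.subgroupOf L) := Fintype.ofFinite _
  obtain ⟨ξ0, rfl⟩ := hb
  haveI hn : (P.subgroupOf L).Normal := normal_subgroupOf_of_le_normalizer hLN
  have hP' : IsPGroup p (P.subgroupOf L) := hP.comap_subtype
  have hPL := hPK.trans hKL
  have hCH' : Subgroup.centralizer ((P.subgroupOf L : Subgroup L) : Set L) ≤ K.subgroupOf L := by
    intro x hx
    exact Subgroup.mem_subgroupOf.2 (hCK ((mem_centralizer_subgroupOf_iff x hPL).1 hx))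
  have hHN' : K.subgroupOf L ≤ Subgroup.normalizer ((P.subgroupOf L : Subgroup L) : Set L) := by
    rw [Subgroup.normalizer_eq_top]; exact le_top
  have hPH' : P.subgroupOf L ≤ K.subgroupOf L :=
    fun x hx => Subgroup.mem_subgroupOf.2 (hPK (Subgroup.mem_subgroupOf.1 hx))
  obtain ⟨β, hβ, hBr⟩ := exists_block_brauer hM hP' hCH' hHN' (towerIrr hKL ξ0)
  refine ⟨β, ?_⟩
  rw [towerBlock, blockComap_blockOf]
  exact isInducedBlock_of_brauer_congr hM hP' hPH' hHN' (towerIrr hKL ξ0) hβ hBr

theorem card_subgroupOf_of_le (hPL : P ≤ L) : Nat.card (P.subgroupOf L) = Nat.card P :=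
  Nat.card_congr (Subgroup.subgroupOfEquivOfLe hPL).toEquiv

theorem defectGroup_subgroupOf_iff_card [Fact p.Prime] (hM : IsPModular p M) (hP : IsPGroup p P)
    (hPL : P ≤ L) (hLN : L ≤ Subgroup.normalizer (P : Set G)) {β : Set (IrrCharacter L)}
    (hβ : IsPBlock M β) :
    IsDefectGroup p M β (P.subgroupOf L) ↔ Nat.card P = p ^ blockDefect p β := by
  constructor
  · intro h
    rw [← card_defectGroup hM hβ h, card_subgroupOf_of_le hPL]
  · intro h
    obtain ⟨D, hD⟩ := exists_defectGroup hM hβ
    haveI hn : (P.subgroupOf L).Normal := normal_subgroupOf_of_le_normalizer hLN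
    have hle := normal_le_defectGroup hM hβ hD (P.subgroupOf L) hP.comap_subtype
    have : P.subgroupOf L = D := Subgroup.eq_of_le_of_card_ge hle (by
      rw [card_defectGroup hM hβ hD, card_subgroupOf_of_le hPL, h])
    rw [this]
    exact hD

theorem defectGroup_normalizer_iff [Fact p.Prime] (hM : IsPModular p M) (hP : IsPGroup p P)
    {β : Set (IrrCharacter (Subgroup.normalizer (P : Set G)))} {B : Set (IrrCharacter G)}
    (hind : IsInducedBlock M (Subgroup.normalizer (P : Set G)) β B) :
    IsDefectGroup p M B P ↔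
      IsDefectGroup p M β (P.subgroupOf (Subgroup.normalizer (P : Set G))) := by
  classical
  haveI : Fintype G := Fintype.ofFinite _
  haveI : Fintype (Subgroup.normalizer (P : Set G)) := Fintype.ofFinite _
  constructor
  · intro h
    obtain ⟨D, hD⟩ := exists_defectGroup hM hind.1
    haveI hn : (P.subgroupOf (Subgroup.normalizer (P : Set G))).Normal :=
      normal_subgroupOf_of_le_normalizer le_rfl
    have hle := normal_le_defectGroup hM hind.1 hD
      (P.subgroupOf (Subgroup.normalizer (P : Set G))) hP.comap_subtype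
    obtain ⟨E, hE, hDE⟩ := defectGroup_induced_le hM hind hD
    have h1 : Nat.card D ≤ Nat.card E := by
      have h2 : Nat.card (D.map (Subgroup.normalizer (P : Set G)).subtype) = Nat.card D :=
        Subgroup.card_map_of_injective (Subgroup.subtype_injective _)
      rw [← h2]
      exact Subgroup.card_le_of_le hDE
    have : P.subgroupOf (Subgroup.normalizer (P : Set G)) = D :=
      Subgroup.eq_of_le_of_card_ge hle (by
        rw [card_subgroupOf_of_le (le_normalizer' P), card_defectGroup hM hind.2.1 h,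
          ← card_defectGroup hM hind.2.1 hE]
        exact h1)
    rw [this]
    exact hD
  · intro h
    exact defectGroup_of_induced_normalizer hM hP rfl h hind

end efm

section conjin
variable {K L : Subgroup G}

/-- Conjugate of a character of `K` by an element of `L`, when `L` normalizes `K`. -/
noncomputable def conjIrrIn (hKL : K ≤ L) [(K.subgroupOf L).Normal] (θ : IrrCharacter K) (x : L) :
    IrrCharacter K :=
  irrComap (Subgroup.subgroupOfEquivOfLe hKL).symm (conjIrr (K.subgroupOf L) (towerIrr hKL θ) x)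

theorem towerIrr_conjIrrIn (hKL : K ≤ L) [(K.subgroupOf L).Normal] (θ : IrrCharacter K) (x : L) :
    towerIrr hKL (conjIrrIn hKL θ x) = conjIrr (K.subgroupOf L) (towerIrr hKL θ) x :=
  irrComap_irrComap_symm _ _

theorem conjIrrIn_apply (hKL : K ≤ L) [(K.subgroupOf L).Normal] (θ : IrrCharacter K) (x : L)
    (k : K) (hk : (x : G) * k * (x : G)⁻¹ ∈ K) :
    (conjIrrIn hKL θ x : K → ℂ) k = (θ : K → ℂ) ⟨(x : G) * k * (x : G)⁻¹, hk⟩ := by
  have h := congrArg (fun ψ : IrrCharacter (K.subgroupOf L) =>
    (ψ : K.subgroupOf L → ℂ) ⟨⟨k, hKL k.2⟩, Subgroup.mem_subgroupOf.2 k.2⟩)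
    (towerIrr_conjIrrIn hKL θ x)
  rw [towerIrr_apply, conjIrr_apply, towerIrr_apply] at h
  exact h

end conjin

section efm2
variable [Finite G] {P K : Subgroup G}

theorem sup_centralizer_le_normalizer (P : Subgroup G) :
    P ⊔ Subgroup.centralizer (P : Set G) ≤ Subgroup.normalizer (P : Set G) :=
  sup_le (le_normalizer' P) (centralizer_le_normalizer' P)

omit [Finite G] in
theorem normal_sup_centralizer_subgroupOf (P : Subgroup G) :
    ((P ⊔ Subgroup.centralizer (P : Set G)).subgroupOf
      (Subgroup.normalizer (P : Set G))).Normal := by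
  constructor
  intro x hx n
  rw [Subgroup.mem_subgroupOf] at hx ⊢
  have h1 : (P ⊔ Subgroup.centralizer (P : Set G)).map (MulAut.conj (n : G)).toMonoidHom
      ≤ P ⊔ Subgroup.centralizer (P : Set G) := by
    rw [Subgroup.map_sup]
    apply sup_le
    · apply le_sup_of_le_left
      rintro _ ⟨y, hy, rfl⟩
      exact (Subgroup.mem_set_normalizer_iff.1 n.2 y).1 hy
    · apply le_sup_of_le_right
      rintro _ ⟨y, hy, rfl⟩
      exact (conj_mem_centralizer_iff n.2 y).2 hy
  exact h1 ⟨_, hx, rfl⟩

/-- Extended first main theorem, uniqueness up to conjugacy. -/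
theorem conj_of_induced_eq [Fact p.Prime] (hM : IsPModular p M) {B : Set (IrrCharacter G)}
    (hPB : IsDefectGroup p M B P) (hPK : P ≤ K) (hCK : Subgroup.centralizer (P : Set G) ≤ K)
    (hKN : K ≤ Subgroup.normalizer (P : Set G))
    [(K.subgroupOf (Subgroup.normalizer (P : Set G))).Normal]
    {b b' : Set (IrrCharacter K)} (h : IsInducedBlock M K b B) (h' : IsInducedBlock M K b' B) :
    ∃ n : Subgroup.normalizer (P : Set G), ∀ θ ∈ b, conjIrrIn hKN θ n ∈ b' := by
  classical
  haveI := IsPModular.isPrime hM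
  haveI : Fintype G := Fintype.ofFinite _
  haveI : Fintype (Subgroup.normalizer (P : Set G)) := Fintype.ofFinite _
  haveI : Fintype (K.subgroupOf (Subgroup.normalizer (P : Set G))) := Fintype.ofFinite _
  have hP : IsPGroup p P := isPGroup_of_defectGroup hM h.2.1 hPB
  obtain ⟨β, hβ⟩ := exists_tower_induced hM hP hPK hCK hKN le_rfl h.1
  obtain ⟨β', hβ'⟩ := exists_tower_induced hM hP hPK hCK hKN le_rfl h'.1
  have hβB := isInducedBlock_tower_up hKN hβ h
  have hβB' := isInducedBlock_tower_up hKN hβ' h'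
  have hdef := (defectGroup_normalizer_iff hM hP hβB).1 hPB
  have hdef' := (defectGroup_normalizer_iff hM hP hβB').1 hPB
  have e : β = β' := eq_of_induced_normalizer hM hP rfl hdef hdef' hβB hβB'
  subst e
  obtain ⟨χ, hχ, θ₁, hθ₁, hcon⟩ := covers_of_isInducedBlock _ hβ
  obtain ⟨χ', hχ', θ₁', hθ₁', hcon'⟩ := covers_of_isInducedBlock _ hβ'
  obtain ⟨g, θ₂, hθ₂, e2⟩ := mem_conjClosure_of_cover _ hβ.2.1 hβ.1 hχ hθ₁ hcon hχ' hcon'
  refine ⟨g, fun θ hθ => ?_⟩
  rw [← irrComap_mem_blockComap (Subgroup.subgroupOfEquivOfLe hKN)]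
  have e3 : irrComap (Subgroup.subgroupOfEquivOfLe hKN) (conjIrrIn hKN θ g)
      = conjIrr _ (towerIrr hKN θ) g := towerIrr_conjIrrIn hKN θ g
  rw [e3]
  change _ ∈ towerBlock hKN b'
  rw [isPBlock_eq_blockOf hβ'.1 hθ₁', mem_blockOf, e2]
  exact sameBlock_conjIrr _ (sameBlock_of_mem hβ.1 hθ₂ ((irrComap_mem_blockComap _).2 hθ)) g

end efm2

end Cfsg.Agent.Lib.Helper7
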