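import Cfsg.Agent.Lib.Helper7.BlockEFM

set_option autoImplicit false
set_option linter.style.haveILetI false
set_option linter.unusedSectionVars false
open Cfsg
open scoped ComplexConjugate

namespace Cfsg.Agent.Lib.Helper7

universe u
variable {M : Ideal AlgInt} {p : ℕ}
variable {G : Type u} [Group G]

theorem conjIrr_of_mem (N : Subgroup G) [hN : N.Normal] (θ : IrrCharacter N) {x : G} (hx : x ∈ N) :
    conjIrr N θ x = θ := by
  apply Subtype.ext
  funext y
  rw [conjIrr_apply]
  exact isClassFunction_irr θ y ⟨x, hx⟩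

section efm3
variable [Finite G] {P K : Subgroup G}

/-- Extended first main theorem: the defect group criterion. -/
theorem defectGroup_iff_not_dvd_relIndex [Fact p.Prime] (hM : IsPModular p M) (hP : IsPGroup p P)
    (hPK : P ≤ K) (hCK : Subgroup.centralizer (P : Set G) ≤ K)
    (hKN : K ≤ Subgroup.normalizer (P : Set G))
    [(K.subgroupOf (Subgroup.normalizer (P : Set G))).Normal]
    {b : Set (IrrCharacter K)} (hbP : IsDefectGroup p M b (P.subgroupOf K))
    {B : Set (IrrCharacter G)} (hind : IsInducedBlock M K b B) (T : Subgroup G)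
    (hTN : T ≤ Subgroup.normalizer (P : Set G))
    (hT : ∀ x : Subgroup.normalizer (P : Set G), (x : G) ∈ T ↔ ∀ θ ∈ b, conjIrrIn hKN θ x ∈ b) :
    IsDefectGroup p M B P ↔ ¬ p ∣ K.relIndex T := by
  classical
  haveI := IsPModular.isPrime hM
  have hp : p.Prime := Fact.out
  haveI : Fintype G := Fintype.ofFinite _
  haveI : Fintype (Subgroup.normalizer (P : Set G)) := Fintype.ofFinite _
  haveI : Fintype (K.subgroupOf (Subgroup.normalizer (P : Set G))) := Fintype.ofFinite _
  haveI : Fintype (T.subgroupOf (Subgroup.normalizer (P : Set G))) := Fintype.ofFinite _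
  obtain ⟨β, hβ⟩ := exists_tower_induced hM hP hPK hCK hKN le_rfl hind.1
  have hβB := isInducedBlock_tower_up hKN hβ hind
  rw [defectGroup_normalizer_iff hM hP hβB,
    defectGroup_subgroupOf_iff_card hM hP (le_normalizer' P) le_rfl hβ.2.1]
  have hcardP : Nat.card P = p ^ blockDefect p b := by
    rw [← card_defectGroup hM hind.1 hbP, card_subgroupOf_of_le hPK]
  have hT' : ∀ g : Subgroup.normalizer (P : Set G),
      g ∈ T.subgroupOf (Subgroup.normalizer (P : Set G)) ↔
      ∀ θ ∈ towerBlock hKN b, conjIrr (K.subgroupOf (Subgroup.normalizer (P : Set G))) θ g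
        ∈ towerBlock hKN b := by
    intro g
    rw [Subgroup.mem_subgroupOf, hT]
    constructor
    · rintro h _ ⟨θ, hθ, rfl⟩
      have e3 : irrComap (Subgroup.subgroupOfEquivOfLe hKN) (conjIrrIn hKN θ g)
        = conjIrr _ (towerIrr hKN θ) g := towerIrr_conjIrrIn hKN θ g
      rw [← e3]
      exact (irrComap_mem_blockComap _).2 (h θ hθ)
    · intro h θ hθ
      have e3 : irrComap (Subgroup.subgroupOfEquivOfLe hKN) (conjIrrIn hKN θ g)
        = conjIrr _ (towerIrr hKN θ) g := towerIrr_conjIrrIn hKN θ g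
      rw [← irrComap_mem_blockComap (Subgroup.subgroupOfEquivOfLe hKN), e3]
      exact h _ ((irrComap_mem_blockComap _).2 hθ)
  have hKT : K.subgroupOf (Subgroup.normalizer (P : Set G))
      ≤ T.subgroupOf (Subgroup.normalizer (P : Set G)) := by
    intro x hx
    rw [hT']
    intro θ hθ
    rw [conjIrr_of_mem _ θ hx]
    exact hθ
  haveI hn : (P.subgroupOf (Subgroup.normalizer (P : Set G))).Normal :=
    normal_subgroupOf_of_le_normalizer le_rfl
  have hCH' : Subgroup.centralizer ((P.subgroupOf (Subgroup.normalizer (P : Set G)) :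
      Subgroup (Subgroup.normalizer (P : Set G))) : Set (Subgroup.normalizer (P : Set G)))
      ≤ K.subgroupOf (Subgroup.normalizer (P : Set G)) := by
    intro x hx
    exact Subgroup.mem_subgroupOf.2 (hCK ((mem_centralizer_subgroupOf_iff x (le_normalizer' P)).1 hx))
  have hfong := fong_general (K.subgroupOf (Subgroup.normalizer (P : Set G)))
    (T.subgroupOf (Subgroup.normalizer (P : Set G))) hM hKT hβ.1 hT' hβ.2.1
    (covers_of_isInducedBlock _ hβ) (by
      intro B' hB' hc
      rw [induced_of_covers _ hM (P.subgroupOf (Subgroup.normalizer (P : Set G)))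
        hP.comap_subtype hCH' hβ hB' hc])
  rw [blockDefect_blockComap, Subgroup.relIndex_subgroupOf hTN] at hfong
  have hne : K.relIndex T ≠ 0 := by
    unfold Subgroup.relIndex
    exact Subgroup.index_ne_zero_of_finite
  rw [hcardP, hfong]
  constructor
  · intro h hd
    have h1 := Nat.pow_right_injective hp.two_le h
    have h2 := (Nat.Prime.dvd_iff_one_le_factorization hp hne).1 hd
    omega
  · intro h
    rw [Nat.factorization_eq_zero_of_not_dvd h, add_zero]

end efm3

section stabform
variable {K L : Subgroup G}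

theorem conj_mem_of_normal_subgroupOf (hKL : K ≤ L) [hn : (K.subgroupOf L).Normal] (x : L)
    (k : K) : (x : G) * k * (x : G)⁻¹ ∈ K := by
  have := hn.conj_mem ⟨k, hKL k.2⟩ (Subgroup.mem_subgroupOf.2 k.2) x
  exact Subgroup.mem_subgroupOf.1 this

/-- The stabilizer condition in the form `θ' (g h g⁻¹) = θ h`. -/
theorem stab_form_iff (hKL : K ≤ L) [hn : (K.subgroupOf L).Normal] (b : Set (IrrCharacter K))
    (x : L) :
    (∀ θ ∈ b, ∀ θ' : IrrCharacter K,
      (∀ h h' : K, (h' : G) = (x : G)⁻¹ * h * ((x : G)⁻¹)⁻¹ → (θ' : K → ℂ) h' = (θ : K → ℂ) h) →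
        θ' ∈ b) ↔ ∀ θ ∈ b, conjIrrIn hKL θ x ∈ b := by
  constructor
  · intro h θ hθ
    apply h θ hθ
    intro k k' hk
    have e : (x : G) * k' * (x : G)⁻¹ = k := by rw [hk]; group
    rw [conjIrrIn_apply hKL θ x k' (e ▸ k.2)]
    exact congrArg (θ : K → ℂ) (Subtype.ext e)
  · intro h θ hθ θ' hθ'
    have : θ' = conjIrrIn hKL θ x := by
      apply Subtype.ext
      funext k
      rw [conjIrrIn_apply hKL θ x k (conj_mem_of_normal_subgroupOf hKL x k)]
      apply hθ'
      simp only
      group
    rw [this]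
    exact h θ hθ

end stabform

end Cfsg.Agent.Lib.Helper7
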