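import Cfsg.Agent.Lib.Helper7.BlockCover4

set_option autoImplicit false
set_option linter.style.haveILetI false
set_option linter.unusedSectionVars false
open Cfsg
open scoped ComplexConjugate

namespace Cfsg.Agent.Lib.Helper7

universe u
variable {G : Type u} [Group G] {M : Ideal AlgInt} {p : ℕ}

theorem inducedCentralChar_congr_isConj (H : Subgroup G) (ξ : H → ℂ) {g g' : G} (h : IsConj g g') :
    inducedCentralChar H ξ g = inducedCentralChar H ξ g' := by
  rw [inducedCentralChar, inducedCentralChar]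
  have : {k : H | IsConj g (k : G)} = {k : H | IsConj g' (k : G)} := by
    ext k
    exact ⟨fun h1 => h.symm.trans h1, fun h1 => h.trans h1⟩
  rw [this]

section cover
variable [Fintype G] (N : Subgroup G) [hN : N.Normal] [Fintype N]

/-- good elements for an invariant block -/
def IsGood (M : Ideal AlgInt) (b : Set (IrrCharacter N)) (x : N) : Prop :=
  ¬ MemLocalIdeal M (blockCoeff b x) ∧
    (∀ θ ∈ b, ¬ MemLocalIdeal M (centralChar (θ : N → ℂ) x)) ∧
    ∀ θ ∈ b, ¬ MemLocalIdeal M (inducedCentralChar N (θ : N → ℂ) (x : G))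

omit hN in
theorem memLocalRing_inducedCentralChar [M.IsPrime] (θ : IrrCharacter N) (g : G) :
    MemLocalRing M (inducedCentralChar N (θ : N → ℂ) g) := by
  classical
  rw [inducedCentralChar_eq_Om]
  exact centralSubring_apply_mem (M := M)
    (v := Om (resH N (fun x => if IsConj g x then (1 : ℂ) else 0)))
    ⟨_, isClassFunction_resH N (isClassFunction_indicator g), fun x => by
      simp only [resH]
      split_ifs
      exacts [memLocalRing_one, memLocalRing_zero], rfl⟩ θ

omit hN in
open Classical in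
theorem inducedCentralChar_eq_sum_classes [Fintype (ConjClasses N)] (θ : IrrCharacter N) (g : G) :
    inducedCentralChar N (θ : N → ℂ) g
      = ∑ K ∈ Finset.univ.filter (fun K : ConjClasses N => IsConj g (K.out : G)),
        centralChar (θ : N → ℂ) K.out := by
  rw [inducedCentralChar_eq_Om,
    Om_eq_sum_centralChar (isClassFunction_resH N (isClassFunction_indicator g)), Finset.sum_filter]
  apply Finset.sum_congr rfl
  intro K _
  simp only [resH]
  split_ifs <;> simp

theorem exists_good [M.IsPrime] {b : Set (IrrCharacter N)} (hb : IsPBlock M b)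
    (hinv : ∀ (θ : IrrCharacter N) (x : G), conjIrr N θ x ∈ b ↔ θ ∈ b) :
    ∃ x : N, IsGood N M b x := by
  classical
  haveI := Fintype.ofFinite (ConjClasses G)
  haveI := Fintype.ofFinite (ConjClasses N)
  obtain ⟨θ, hθ⟩ := isPBlock_nonempty hb
  have hcl := isClassFunction_extH_blockCoeff N hinv
  have hS : ∀ g, MemLocalRing M (extH N (blockCoeff b) g) := memLocalRing_extH N (osima hb)
  have e : resH N (extH N (blockCoeff b)) = blockCoeff b := by
    funext n
    exact extH_coe N _ n
  have h1 := Om_resH_eq_sum N hcl θ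
  rw [e, Om_blockCoeff, Set.indicator_of_mem hθ] at h1
  obtain ⟨K, hK⟩ : ∃ K : ConjClasses G, ¬ MemLocalIdeal M
      (extH N (blockCoeff b) K.out * inducedCentralChar N (θ : N → ℂ) K.out) := by
    by_contra hcon
    push Not at hcon
    apply not_memLocalIdeal_one (M := M)
    rw [h1]
    exact memLocalIdeal_sum _ _ fun K _ => hcon K
  have hK1 : ¬ MemLocalIdeal M (extH N (blockCoeff b) K.out) := fun h =>
    hK (memLocalIdeal_mul_right h (memLocalRing_inducedCentralChar N θ _))
  have hK2 : ¬ MemLocalIdeal M (inducedCentralChar N (θ : N → ℂ) K.out) := fun h =>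
    hK (memLocalIdeal_mul_left (hS _) h)
  rw [inducedCentralChar_eq_sum_classes] at hK2
  obtain ⟨K', hK', hK'2⟩ : ∃ K' : ConjClasses N, IsConj K.out (K'.out : G) ∧
      ¬ MemLocalIdeal M (centralChar (θ : N → ℂ) K'.out) := by
    by_contra hcon
    push Not at hcon
    apply hK2
    exact memLocalIdeal_sum _ _ fun K' hK' => hcon K' (Finset.mem_filter.1 hK').2
  refine ⟨K'.out, ?_, ?_, ?_⟩
  · rw [← extH_coe N (blockCoeff b) K'.out, ← classFunction_eq_of_isConj hcl hK']
    exact hK1
  · intro θ' hθ'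
    exact not_memLocalIdeal_of_sub (sameBlock_of_mem hb hθ' hθ _) hK'2
  · intro θ' hθ'
    apply not_memLocalIdeal_of_sub (induced_congr_of_sameBlock N (sameBlock_of_mem hb hθ' hθ) _)
    rw [← inducedCentralChar_congr_isConj N _ hK', inducedCentralChar_eq_sum_classes]
    exact hK2

theorem isGood_conj {b : Set (IrrCharacter N)}
    (hinv : ∀ (θ : IrrCharacter N) (x : G), conjIrr N θ x ∈ b ↔ θ ∈ b) {x : N}
    (hx : IsGood N M b x) (t : G) :
    IsGood N M b ⟨t * x * t⁻¹, hN.conj_mem x x.2 t⟩ := by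
  have hcl := isClassFunction_extH_blockCoeff N hinv
  refine ⟨?_, ?_, ?_⟩
  · have h1 := hcl x t
    rw [extH_coe, extH_of_mem N _ (hN.conj_mem x x.2 t)] at h1
    rw [h1]
    exact hx.1
  · intro θ hθ
    rw [← centralChar_conjIrr]
    exact hx.2.1 _ ((hinv θ t).2 hθ)
  · intro θ hθ
    rw [← inducedCentralChar_congr_isConj N _ (isConj_iff.2 ⟨t, rfl⟩ : IsConj (x : G) (t * x * t⁻¹))]
    exact hx.2.2 θ hθ

theorem good_index (hM : IsPModular p M) {b : Set (IrrCharacter N)} (hb : IsPBlock M b)
    (hinv : ∀ (θ : IrrCharacter N) (x : G), conjIrr N θ x ∈ b ↔ θ ∈ b) {x : N}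
    (hx : IsGood N M b x) :
    (Subgroup.centralizer ({(x : G)} : Set G)).index.factorization p
      = (Subgroup.centralizer ({x} : Set N)).index.factorization p := by
  classical
  haveI := hM.2.1.isPrime
  haveI := Fintype.ofFinite (ConjClasses N)
  obtain ⟨θ, hθ⟩ := isPBlock_nonempty hb
  obtain ⟨S, hS⟩ : ∃ S, S = Finset.univ.filter (fun K : ConjClasses N => IsConj (x : G) (K.out : G)) :=
    ⟨_, rfl⟩
  have hconj : ∀ K ∈ S, ∀ ψ : IrrCharacter N, ∃ g : G,
      centralChar (ψ : N → ℂ) K.out = centralChar (conjIrr N ψ g : N → ℂ) x := by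
    intro K hK ψ
    rw [hS] at hK
    obtain ⟨g, hg⟩ := isConj_iff.1 (Finset.mem_filter.1 hK).2
    refine ⟨g, ?_⟩
    rw [centralChar_conjIrr]
    congr 1
    apply Subtype.ext
    exact hg.symm
  -- `p ∤ s`
  have h1 : MemLocalIdeal M (inducedCentralChar N (θ : N → ℂ) (x : G)
      - (S.card : ℂ) * centralChar (θ : N → ℂ) x) := by
    rw [inducedCentralChar_eq_sum_classes, ← hS, ← nsmul_eq_mul, ← Finset.sum_const,
      ← Finset.sum_sub_distrib]
    apply memLocalIdeal_sum
    intro K hK
    obtain ⟨g, hg⟩ := hconj K hK θ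
    rw [hg]
    exact sameBlock_of_mem hb ((hinv θ g).2 hθ) hθ x
  have h2 : ¬ p ∣ S.card := by
    intro hd
    apply hx.2.2 θ hθ
    have h3 : MemLocalIdeal M ((S.card : ℂ) * centralChar (θ : N → ℂ) x) :=
      memLocalIdeal_mul_right ((memLocalIdeal_natCast_iff hM _).2 hd) (memLocalRing_centralChar θ x)
    have := memLocalIdeal_add h1 h3
    rwa [sub_add_cancel] at this
  -- index identity from the trivial characters
  let oneN : IrrCharacter N := ⟨fun _ => 1, isIrrCharacter_one⟩
  let oneG : IrrCharacter G := ⟨fun _ => 1, isIrrCharacter_one⟩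
  have h4 : classInner (fun n : N => (oneG : G → ℂ) n) (oneN : N → ℂ) ≠ 0 := by
    have : classInner (fun n : N => (oneG : G → ℂ) n) (oneN : N → ℂ) = 1 :=
      classInner_irr_self oneN.2
    rw [this]; exact one_ne_zero
  have h5 := centralChar_eq_induced_of_constituent N h4 x
  rw [inducedCentralChar_eq_sum_classes, ← hS] at h5
  have h6 : ∀ K ∈ S, centralChar (oneN : N → ℂ) K.out = centralChar (oneN : N → ℂ) x := by
    intro K hK
    obtain ⟨g, hg⟩ := hconj K hK oneN
    rw [hg]
    rfl
  rw [Finset.sum_congr rfl h6, Finset.sum_const, nsmul_eq_mul] at h5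
  have h7 : ((Subgroup.centralizer ({(x : G)} : Set G)).index : ℂ)
      = (S.card : ℂ) * ((Subgroup.centralizer ({x} : Set N)).index : ℂ) := by
    simpa [centralChar, oneG, oneN] using h5
  have h8 : (Subgroup.centralizer ({(x : G)} : Set G)).index
      = S.card * (Subgroup.centralizer ({x} : Set N)).index := by exact_mod_cast h7
  have hS0 : S.card ≠ 0 := by
    rintro h0
    exact h2 (h0 ▸ dvd_zero p)
  rw [h8, Nat.factorization_mul hS0 (Subgroup.index_ne_zero_of_finite), Finsupp.add_apply,
    Nat.factorization_eq_zero_of_not_dvd h2, zero_add]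

theorem not_memLocalIdeal_centralChar_of_good [M.IsPrime] {b : Set (IrrCharacter N)}
    (hb : IsPBlock M b) {x : N} (hx : IsGood N M b x) {B' : Set (IrrCharacter G)}
    (hB' : IsPBlock M B') (hc : Covers N B' b) {χ : IrrCharacter G} (hχ : χ ∈ B') :
    ¬ MemLocalIdeal M (centralChar (χ : G → ℂ) (x : G)) := by
  obtain ⟨θ, hθ⟩ := isPBlock_nonempty hb
  exact not_memLocalIdeal_of_sub (cover_congr N hB' hb hc hχ hθ x) (hx.2.2 θ hθ)

theorem exists_conj_le_of_covers (hM : IsPModular p M) {b : Set (IrrCharacter N)}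
    (hb : IsPBlock M b) {x : N} (hx : IsGood N M b x) {B' : Set (IrrCharacter G)}
    (hB' : IsPBlock M B') (hc : Covers N B' b) {D' : Subgroup G}
    (hD' : IsDefectGroup p M B' D') :
    ∃ t : G, D'.map (MulAut.conj t).toMonoidHom ≤ Subgroup.centralizer ({(x : G)} : Set G) := by
  haveI := hM.2.1.isPrime
  obtain ⟨y, hy, S, rfl⟩ := hD'
  obtain ⟨χ, hχ⟩ := isPBlock_nonempty hB'
  exact minmax_le hM hB' (h := (x : G)) (k := y)
    ⟨χ, hχ, not_memLocalIdeal_centralChar_of_good N hb hx hB' hc hχ⟩ hy.2.1 _ (S.2.map _)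
    (map_subtype_le _ _)

theorem defect_le_of_covers (hM : IsPModular p M) {b : Set (IrrCharacter N)}
    (hb : IsPBlock M b) {x : N} (hx : IsGood N M b x) {B' : Set (IrrCharacter G)}
    (hB' : IsPBlock M B') (hc : Covers N B' b) :
    blockDefect p B' ≤ (Nat.card (Subgroup.centralizer ({(x : G)} : Set G))).factorization p := by
  obtain ⟨D', hD'⟩ := exists_defectGroup hM hB'
  obtain ⟨t, ht⟩ := exists_conj_le_of_covers N hM hb hx hB' hc hD'
  have h1 := Subgroup.card_dvd_of_le ht
  rw [Subgroup.card_map_of_injective (MulAut.conj t).injective, card_defectGroup hM hB' hD'] at h1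
  exact (Nat.Prime.pow_dvd_iff_le_factorization hM.1 Nat.card_pos.ne').1 h1

theorem exists_cover_defectClass [M.IsPrime] {b : Set (IrrCharacter N)} (hb : IsPBlock M b)
    (hinv : ∀ (θ : IrrCharacter N) (x : G), conjIrr N θ x ∈ b ↔ θ ∈ b) {x : N}
    (hx : IsGood N M b x) :
    ∃ B₁ : Set (IrrCharacter G), IsPBlock M B₁ ∧ Covers N B₁ b ∧ IsDefectClass M B₁ (x : G) := by
  have h1 : ¬ MemLocalIdeal M (blockCoeff (overSet N b) (x : G)) := by
    rw [← extH_blockCoeff_eq N hinv, extH_coe]
    exact hx.1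
  obtain ⟨B₁, hB₁, hsub, h2⟩ := exists_block_blockCoeff (isBlockUnion_overSet N hb hinv) h1
  obtain ⟨χ, hχ⟩ := isPBlock_nonempty hB₁
  obtain ⟨θ, hθ, hcon⟩ := hsub hχ
  have hc : Covers N B₁ b := ⟨χ, hχ, θ, hθ, hcon⟩
  exact ⟨B₁, hB₁, hc, osima hB₁ _, h2,
    fun χ' hχ' => not_memLocalIdeal_centralChar_of_good N hb hx hB₁ hc hχ'⟩

/-- `S0970` (Fong) -/
theorem fong (hM : IsPModular p M) {b : Set (IrrCharacter N)} (hb : IsPBlock M b)
    (hinv : ∀ (θ : IrrCharacter N) (x : G), conjIrr N θ x ∈ b ↔ θ ∈ b)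
    {B : Set (IrrCharacter G)} (hB : IsPBlock M B) (hcov : Covers N B b)
    (hmax : ∀ B' : Set (IrrCharacter G), IsPBlock M B' → Covers N B' b →
      blockDefect p B' ≤ blockDefect p B) {P : Subgroup G} (hP : IsDefectGroup p M B P) :
    ¬ p ∣ (P ⊔ N).index ∧ IsDefectGroup p M b ((P ⊓ N).subgroupOf N) ∧
      blockDefect p B = blockDefect p b + N.index.factorization p := by
  classical
  haveI := hM.2.1.isPrime
  haveI : Fact p.Prime := ⟨hM.1⟩
  have hp := hM.1
  obtain ⟨x₀, hx₀⟩ := exists_good N hb hinv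
  obtain ⟨t, ht⟩ := exists_conj_le_of_covers N hM hb hx₀ hB hcov hP
  have hx := isGood_conj N hinv hx₀ t⁻¹
  obtain ⟨x, hxdef⟩ : ∃ x : N, x = ⟨t⁻¹ * x₀ * t⁻¹⁻¹, hN.conj_mem x₀ x₀.2 t⁻¹⟩ := ⟨_, rfl⟩
  rw [← hxdef] at hx
  have hxG : (x : G) = t⁻¹ * x₀ * t := by rw [hxdef]; simp
  have hPx : P ≤ Subgroup.centralizer ({(x : G)} : Set G) := by
    intro u hu
    have h1 : t * u * t⁻¹ ∈ Subgroup.centralizer ({(x₀ : G)} : Set G) := ht ⟨u, hu, rfl⟩
    rw [Subgroup.mem_centralizer_singleton_iff] at h1 ⊢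
    rw [hxG]
    have e1 : u * (t⁻¹ * x₀ * t) = t⁻¹ * (t * u * t⁻¹ * x₀) * t := by group
    have e2 : t⁻¹ * x₀ * t * u = t⁻¹ * (x₀ * (t * u * t⁻¹)) * t := by group
    rw [e1, e2, h1]
  obtain ⟨B₁, hB₁, hc₁, hdc₁⟩ := exists_cover_defectClass N hb hinv hx
  have hd1 := (index_factorization_defectClass hM hB₁ hdc₁).2
  have hd2 := defect_le_of_covers N hM hb hx hB hcov
  have hd3 := hmax B₁ hB₁ hc₁
  have hdB : blockDefect p B
      = (Nat.card (Subgroup.centralizer ({(x : G)} : Set G))).factorization p := by omega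
  have hdb : IsDefectClass M b x := ⟨osima hb x, hx.1, hx.2.1⟩
  have hdb2 := (index_factorization_defectClass hM hb hdb).2
  have hα := good_index N hM hb hinv hx
  -- numerics
  have n1 : (Nat.card G).factorization p
      = (Nat.card (Subgroup.centralizer ({(x : G)} : Set G))).factorization p
        + (Subgroup.centralizer ({(x : G)} : Set G)).index.factorization p := by
    rw [← Subgroup.card_mul_index (Subgroup.centralizer ({(x : G)} : Set G)),
      Nat.factorization_mul Nat.card_pos.ne' Subgroup.index_ne_zero_of_finite, Finsupp.add_apply]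
  have n2 : (Nat.card N).factorization p
      = (Nat.card (Subgroup.centralizer ({x} : Set N))).factorization p
        + (Subgroup.centralizer ({x} : Set N)).index.factorization p := by
    rw [← Subgroup.card_mul_index (Subgroup.centralizer ({x} : Set N)),
      Nat.factorization_mul Nat.card_pos.ne' Subgroup.index_ne_zero_of_finite, Finsupp.add_apply]
  have n3 : (Nat.card G).factorization p = (Nat.card N).factorization p
      + N.index.factorization p := by
    rw [← Subgroup.card_mul_index N,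
      Nat.factorization_mul Nat.card_pos.ne' Subgroup.index_ne_zero_of_finite, Finsupp.add_apply]
  have h3 : blockDefect p B = blockDefect p b + N.index.factorization p := by omega
  have hcardP := card_defectGroup hM hB hP
  have c1 : Nat.card (P ⊓ N : Subgroup G) * N.relIndex P = Nat.card P := by
    have := Subgroup.relIndex_mul_relIndex ⊥ (P ⊓ N) P bot_le inf_le_left
    rwa [Subgroup.relIndex_bot_left, Subgroup.relIndex_bot_left, Subgroup.inf_relIndex_left] at this
  have c2 : N.relIndex P * (P ⊔ N).index = N.index := by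
    have := Subgroup.relIndex_mul_index (le_sup_right : N ≤ P ⊔ N)
    rwa [Subgroup.relIndex_sup_right] at this
  have hle : (P ⊓ N).subgroupOf N ≤ Subgroup.centralizer ({x} : Set N) := by
    intro u hu
    have h1 : (u : G) ∈ Subgroup.centralizer ({(x : G)} : Set G) :=
      hPx (Subgroup.mem_subgroupOf.1 hu).1
    rw [Subgroup.mem_centralizer_singleton_iff] at h1 ⊢
    exact Subtype.ext h1
  have c3 : Nat.card ((P ⊓ N).subgroupOf N) = Nat.card (P ⊓ N : Subgroup G) :=
    Nat.card_congr (Subgroup.subgroupOfEquivOfLe inf_le_right).toEquiv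
  have c4 : Nat.card (P ⊓ N : Subgroup G) ∣ Nat.card (Subgroup.centralizer ({x} : Set N)) := by
    rw [← c3]; exact Subgroup.card_dvd_of_le hle
  obtain ⟨i, hi, hi'⟩ := (Nat.dvd_prime_pow hp).1
    (show Nat.card (P ⊓ N : Subgroup G) ∣ p ^ blockDefect p B from hcardP ▸ ⟨_, c1.symm⟩)
  have c5 : N.relIndex P = p ^ (blockDefect p B - i) := by
    have h4 : p ^ i * N.relIndex P = p ^ i * p ^ (blockDefect p B - i) := by
      rw [← pow_add, Nat.add_sub_cancel' hi, ← hi', c1, hcardP]
    exact Nat.eq_of_mul_eq_mul_left (pow_pos hp.pos i) h4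
  have c6 : i ≤ blockDefect p b := by
    rw [hi'] at c4
    rw [← hdb2]
    exact (Nat.Prime.pow_dvd_iff_le_factorization hp Nat.card_pos.ne').1 c4
  have c7 : blockDefect p B - i ≤ N.index.factorization p := by
    have : p ^ (blockDefect p B - i) ∣ N.index := by rw [← c5]; exact ⟨_, c2.symm⟩
    exact (Nat.Prime.pow_dvd_iff_le_factorization hp Subgroup.index_ne_zero_of_finite).1 this
  have c8 : i = blockDefect p b := by omega
  refine ⟨?_, ?_, h3⟩
  · intro hd
    have h5 : N.index.factorization p = (N.relIndex P).factorization p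
        + (P ⊔ N).index.factorization p := by
      rw [← c2, Nat.factorization_mul (by rw [c5]; exact (pow_pos hp.pos _).ne')
        Subgroup.index_ne_zero_of_finite, Finsupp.add_apply]
    rw [c5, Nat.Prime.factorization_pow hp, Finsupp.single_eq_same] at h5
    have h6 := (Nat.Prime.dvd_iff_one_le_factorization hp Subgroup.index_ne_zero_of_finite).1 hd
    omega
  · have hcard : Nat.card (((P ⊓ N).subgroupOf N).subgroupOf (Subgroup.centralizer ({x} : Set N)))
        = p ^ (Nat.card (Subgroup.centralizer ({x} : Set N))).factorization p := by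
      rw [Nat.card_congr (Subgroup.subgroupOfEquivOfLe hle).toEquiv, c3, hi', c8, hdb2]
    refine ⟨x, hdb, Sylow.ofCard _ hcard, ?_⟩
    rw [Sylow.coe_ofCard, map_subgroupOf_eq hle]

end cover

end Cfsg.Agent.Lib.Helper7
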