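import Cfsg.Agent.Lib.Helper7.BlockTransport
import Cfsg.Agent.Lib.Helper7.BlockFong

set_option autoImplicit false
set_option linter.style.haveILetI false
set_option linter.unusedSectionVars false
open Cfsg
open scoped ComplexConjugate

namespace Cfsg.Agent.Lib.Helper7

universe u
variable {M : Ideal AlgInt} {p : ℕ}
variable {G : Type u} [Group G]

/-- Fong's theorem on the defect of a covering block of maximal defect, for a block `b` of a normal
subgroup `N` with stabilizer `T`. -/
theorem fong_general [Fintype G] (N : Subgroup G) [hN : N.Normal] [Fintype N] (T : Subgroup G)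
    [Fintype T] [Fact p.Prime] (hM : IsPModular p M) (hNT : N ≤ T) {b : Set (IrrCharacter N)}
    (hb : IsPBlock M b) (hT : ∀ g : G, g ∈ T ↔ ∀ θ ∈ b, conjIrr N θ g ∈ b)
    {B : Set (IrrCharacter G)} (hB : IsPBlock M B) (hcov : Covers N B b)
    (hmax : ∀ B' : Set (IrrCharacter G), IsPBlock M B' → Covers N B' b →
      blockDefect p B' ≤ blockDefect p B) :
    blockDefect p B = blockDefect p b + (N.relIndex T).factorization p := by
  haveI := IsPModular.isPrime hM
  haveI : Fintype (N.subgroupOf T) := Fintype.ofFinite _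
  obtain ⟨χ, hχ, hov⟩ := hcov
  obtain ⟨η, hη, hc⟩ := fr_exists N T hNT hT hov
  have he := (fr_core N T hNT hb hT hη hc).1
  have hB' : IsPBlock M (blockOf M (η : T → ℂ)) := ⟨η, rfl⟩
  have hcov' : ∃ ψ ∈ blockOf M (η : T → ℂ), Over N T hNT b (ψ : T → ℂ) :=
    ⟨η, self_mem_blockOf η, hη⟩
  obtain ⟨hall, B₁, hind, -, hmem⟩ := fr_block N T hNT hb hT hB' hcov'
  have h1 : χ ∈ B₁ := (hmem χ).2 ⟨η, self_mem_blockOf η, he⟩
  have e : B = B₁ := by rw [isPBlock_eq_blockOf hB hχ, isPBlock_eq_blockOf hind.2.1 h1]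
  subst e
  have hd : blockDefect p B = blockDefect p (blockOf M (η : T → ℂ)) :=
    blockDefect_indFun T p ⟨η, self_mem_blockOf η⟩ hmem
      (fun ψ hψ => fr_irr N T hNT hb hT (hall ψ hψ))
  have hinv : ∀ (θ : IrrCharacter (N.subgroupOf T)) (x : T),
      conjIrr (N.subgroupOf T) θ x ∈ towerBlock hNT b ↔ θ ∈ towerBlock hNT b := by
    intro θ x
    obtain ⟨θ0, rfl⟩ : ∃ θ0, θ = towerIrr hNT θ0 := ⟨_, (irrComap_irrComap_symm _ θ).symm⟩
    rw [conjIrr_tower, irrComap_mem_blockComap, irrComap_mem_blockComap]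
    exact stab_iff N T hT x.2 θ0
  have hmax' : ∀ B'' : Set (IrrCharacter T), IsPBlock M B'' →
      Covers (N.subgroupOf T) B'' (towerBlock hNT b) →
      blockDefect p B'' ≤ blockDefect p (blockOf M (η : T → ℂ)) := by
    intro B'' hB'' hc''
    rw [covers_tower_iff] at hc''
    obtain ⟨hall2, B₂, hind2, hcov2, hmem2⟩ := fr_block N T hNT hb hT hB'' hc''
    have := hmax B₂ hind2.2.1 hcov2
    rw [blockDefect_indFun T p (isPBlock_nonempty hB'') hmem2
      (fun ψ hψ => fr_irr N T hNT hb hT (hall2 ψ hψ)), hd] at this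
    exact this
  obtain ⟨P, hP⟩ := exists_defectGroup hM hB'
  have := (fong (N.subgroupOf T) hM (isPBlock_blockComap _ hb) hinv hB'
    ((covers_tower_iff hNT b _).2 hcov') hmax' hP).2.2
  rw [hd, this, blockDefect_blockComap]
  rfl

end Cfsg.Agent.Lib.Helper7
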