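import Cfsg.Agent.Lib.Helper7.BlockWords
import Cfsg.Agent.Lib.Helper7.BlockEFM2

set_option autoImplicit false
set_option linter.style.haveILetI false
set_option linter.unusedSectionVars false
open Cfsg
open scoped ComplexConjugate

namespace Cfsg.Agent.Lib.Helper7

universe u
variable {G : Type u} [Group G] {M : Ideal AlgInt} {p : ℕ}

section inv
variable [Fintype G]

/-- `c` is invariant under conjugation by `Q`. -/
def InvUnder (Q : Subgroup G) (c : G → ℂ) : Prop := ∀ q ∈ Q, ∀ x, c (q * x * q⁻¹) = c x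

omit [Fintype G] in
theorem invUnder_of_class (Q : Subgroup G) {c : G → ℂ} (hc : IsClassFunction G c) :
    InvUnder Q c := fun q _ x => hc x q

omit [Fintype G] in
theorem InvUnder.mono {Q Q' : Subgroup G} (h : Q ≤ Q') {c : G → ℂ} (hc : InvUnder Q' c) :
    InvUnder Q c := fun q hq x => hc q (h hq) x

theorem invUnder_conv {Q : Subgroup G} {c d : G → ℂ} (hc : InvUnder Q c) (hd : InvUnder Q d) :
    InvUnder Q (conv c d) := by
  intro q hq x
  unfold conv
  rw [← Equiv.sum_comp (MulAut.conj q).toEquiv]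
  apply Finset.sum_congr rfl
  intro g _
  have e1 : (MulAut.conj q).toEquiv g = q * g * q⁻¹ := rfl
  rw [e1, hc q hq]
  congr 1
  rw [← hd q hq (g⁻¹ * x)]
  congr 1
  group

theorem invUnder_cpow [DecidableEq G] {Q : Subgroup G} {c : G → ℂ} (hc : InvUnder Q c) (n : ℕ) :
    InvUnder Q (cpow c n) := by
  induction n with
  | zero =>
    intro q _ x
    simp only [cpow]
    have : q * x * q⁻¹ = 1 ↔ x = 1 := by
      constructor
      · intro h
        have : x = q⁻¹ * (q * x * q⁻¹) * q := by group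
        rw [this, h]; group
      · rintro rfl; group
    simp only [this]
  | succ n ih => exact invUnder_conv hc ih

theorem memLocalIdeal_conv_left [M.IsPrime] {c d : G → ℂ} (hc : ∀ g, MemLocalIdeal M (c g))
    (hd : ∀ g, MemLocalRing M (d g)) (x : G) : MemLocalIdeal M (conv c d x) :=
  memLocalIdeal_sum _ _ fun g _ => memLocalIdeal_mul_right (hc g) (hd _)

theorem memLocalRing_cpow [DecidableEq G] [M.IsPrime] {c : G → ℂ}
    (hc : ∀ g, MemLocalRing M (c g)) (n : ℕ) : ∀ g, MemLocalRing M (cpow c n g) := by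
  induction n with
  | zero =>
    intro g
    simp only [cpow]
    split_ifs
    exacts [memLocalRing_one, memLocalRing_zero]
  | succ n ih => exact memLocalRing_conv hc ih

/-- The Brauer map is multiplicative modulo the ideal, for `Q`-invariant functions. -/
theorem conv_brauer' (hM : IsPModular p M) (Q : Subgroup G) (hQ : IsPGroup p Q)
    {c d : G → ℂ} (hc : InvUnder Q c) (hd : InvUnder Q d)
    (hcS : ∀ g, MemLocalRing M (c g)) (hdS : ∀ g, MemLocalRing M (d g)) {k : G}
    (hk : k ∈ Subgroup.centralizer (Q : Set G)) :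
    MemLocalIdeal M (conv c d k -
      ∑ x, (Subgroup.centralizer (Q : Set G) : Set G).indicator (fun x => c x * d (x⁻¹ * k)) x) := by
  classical
  haveI := hM.2.1.isPrime
  have key := orbit_sum hM hQ (conjPerm Q) (fun x => c x * d (x⁻¹ * k))
    (fun x => memLocalRing_mul (hcS x) (hdS _))
    (by
      intro q x
      simp only [conjPerm_apply]
      rw [hc q q.2]
      congr 1
      have hqk : (q : G) * k = k * q := (Subgroup.mem_centralizer_iff.1 hk q q.2)
      have : ((q : G) * x * (q : G)⁻¹)⁻¹ * k = q * (x⁻¹ * k) * (q : G)⁻¹ := by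
        have : k = q * k * (q : G)⁻¹ := by rw [hqk]; group
        conv_lhs => rw [this]
        group
      rw [this, hd q q.2])
  convert key using 1
  rw [conv, ← Finset.sum_sub_distrib]
  apply Finset.sum_congr rfl
  intro x _
  by_cases hx : x ∈ Subgroup.centralizer (Q : Set G)
  · rw [if_pos ((conjPerm_fixed_iff Q x).2 hx), Set.indicator_of_mem (by exact hx), sub_self]
  · rw [if_neg (fun h => hx ((conjPerm_fixed_iff Q x).1 h)), Set.indicator_of_notMem (by exact hx),
      sub_zero]

theorem conv_vanish_left (hM : IsPModular p M) (Q : Subgroup G) (hQ : IsPGroup p Q)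
    {c d : G → ℂ} (hc : InvUnder Q c) (hd : InvUnder Q d)
    (hcS : ∀ g, MemLocalRing M (c g)) (hdS : ∀ g, MemLocalRing M (d g))
    (hv : ∀ x ∈ Subgroup.centralizer (Q : Set G), MemLocalIdeal M (c x)) {k : G}
    (hk : k ∈ Subgroup.centralizer (Q : Set G)) : MemLocalIdeal M (conv c d k) := by
  haveI := hM.2.1.isPrime
  have h1 := conv_brauer' hM Q hQ hc hd hcS hdS hk
  have h2 : MemLocalIdeal M (∑ x, (Subgroup.centralizer (Q : Set G) : Set G).indicator
      (fun x => c x * d (x⁻¹ * k)) x) := by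
    apply memLocalIdeal_sum
    intro x _
    by_cases hx : x ∈ Subgroup.centralizer (Q : Set G)
    · rw [Set.indicator_of_mem (by exact hx)]
      exact memLocalIdeal_mul_right (hv x hx) (hdS _)
    · rw [Set.indicator_of_notMem (by exact hx)]
      exact memLocalIdeal_zero
  have := memLocalIdeal_add h1 h2
  rwa [sub_add_cancel] at this

theorem Lmat_injective {f h : G → ℂ} (e : Lmat f = Lmat h) : f = h := by
  funext z
  have := congrFun (congrFun e z) 1
  simpa [Lmat] using this

theorem Lmat_sum {ι : Type*} (s : Finset ι) (f : ι → G → ℂ) :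
    Lmat (∑ i ∈ s, f i) = ∑ i ∈ s, Lmat (f i) := by
  ext z w
  simp [Lmat, Matrix.sum_apply, Finset.sum_apply]

end inv

section comp
variable [Fintype G] (N : Subgroup G) [hN : N.Normal]

open Classical in
/-- The component of `e` on the coset `γ` of `N`. -/
noncomputable def comp (e : G → ℂ) (γ : G ⧸ N) : G → ℂ :=
  fun y => if (y : G ⧸ N) = γ then e y else 0

omit [Fintype G] hN in
theorem sum_comp [Fintype (G ⧸ N)] (e : G → ℂ) : ∑ γ, comp N e γ = e := by
  classical
  funext y
  simp [comp, Finset.sum_apply]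

omit [Fintype G] hN in
theorem memLocalRing_comp [M.IsPrime] {e : G → ℂ} (he : ∀ g, MemLocalRing M (e g)) (γ : G ⧸ N)
    (g : G) : MemLocalRing M (comp N e γ g) := by
  unfold comp
  split_ifs
  exacts [he g, memLocalRing_zero]

omit [Fintype G] in
theorem invUnder_comp {e : G → ℂ} (he : IsClassFunction G e) (γ : G ⧸ N) :
    InvUnder N (comp N e γ) := by
  intro q hq x
  unfold comp
  have : ((q * x * q⁻¹ : G) : G ⧸ N) = (x : G ⧸ N) := by
    have hq1 : (q : G ⧸ N) = 1 := (QuotientGroup.eq_one_iff q).2 hq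
    simp [hq1]
  rw [this, he]

theorem conv_comp_comm {e : G → ℂ} (he : IsClassFunction G e) (γ δ : G ⧸ N) :
    conv (comp N e γ) (comp N e δ) = conv (comp N e (γ * δ * γ⁻¹)) (comp N e γ) := by
  funext x
  rw [conv_eq_sum_right (comp N e (γ * δ * γ⁻¹))]
  unfold conv
  apply Finset.sum_congr rfl
  intro k _
  by_cases hk : (k : G ⧸ N) = γ
  · rw [mul_comm]
    congr 1
    unfold comp
    have e1 : e (x * k⁻¹) = e (k⁻¹ * x) := by
      have : x * k⁻¹ = k * (k⁻¹ * x) * k⁻¹ := by group
      rw [this, he]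
    have e2 : ((x * k⁻¹ : G) : G ⧸ N) = γ * δ * γ⁻¹ ↔ ((k⁻¹ * x : G) : G ⧸ N) = δ := by
      have : ((x * k⁻¹ : G) : G ⧸ N) = γ * ((k⁻¹ * x : G) : G ⧸ N) * γ⁻¹ := by
        rw [← hk]
        simp only [QuotientGroup.mk_mul, QuotientGroup.mk_inv]
        group
      rw [this]
      constructor
      · intro h
        have h2 := mul_right_cancel h
        exact mul_left_cancel h2
      · intro h; rw [h]
    rw [e1]
    by_cases h3 : ((k⁻¹ * x : G) : G ⧸ N) = δ
    · rw [if_pos h3, if_pos (e2.2 h3)]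
    · rw [if_neg h3, if_neg (fun h => h3 (e2.1 h))]
  · have : comp N e γ k = 0 := by unfold comp; rw [if_neg hk]
    rw [this, zero_mul, mul_zero]

/-- `c` is supported on the coset `γ`. -/
def SuppOn (c : G → ℂ) (γ : G ⧸ N) : Prop := ∀ y : G, (y : G ⧸ N) ≠ γ → c y = 0

omit [Fintype G] hN in
theorem suppOn_comp (e : G → ℂ) (γ : G ⧸ N) : SuppOn N (comp N e γ) γ := by
  intro y hy
  unfold comp
  rw [if_neg hy]

theorem suppOn_conv {c d : G → ℂ} {γ δ : G ⧸ N} (hc : SuppOn N c γ) (hd : SuppOn N d δ) :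
    SuppOn N (conv c d) (γ * δ) := by
  intro x hx
  unfold conv
  apply Finset.sum_eq_zero
  intro g _
  by_cases hg : (g : G ⧸ N) = γ
  · have : ((g⁻¹ * x : G) : G ⧸ N) ≠ δ := by
      intro h
      apply hx
      rw [← hg, ← h]
      simp
    rw [hd _ this, mul_zero]
  · rw [hc _ hg, zero_mul]

theorem suppOn_cpow [DecidableEq G] {c : G → ℂ} {γ : G ⧸ N} (hc : SuppOn N c γ) (n : ℕ) :
    SuppOn N (cpow c n) (γ ^ n) := by
  induction n with
  | zero =>
    intro y hy
    simp only [cpow]
    rw [if_neg]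
    rintro rfl
    exact hy (by simp)
  | succ n ih =>
    rw [pow_succ']
    exact suppOn_conv N hc ih

omit [Fintype G] in
theorem eq_extH_of_suppOn {z : G → ℂ} (hz : SuppOn N z 1) : z = extH N (resH N z) := by
  funext y
  by_cases hy : y ∈ N
  · rw [extH_of_mem N _ hy]; rfl
  · rw [extH_of_not_mem N _ hy]
    exact hz y (fun h => hy ((QuotientGroup.eq_one_iff y).1 h))

omit [Fintype G] hN in
theorem isClassFunction_resH_of_invUnder {z : G → ℂ} (hz : InvUnder N z) :
    IsClassFunction N (resH N z) := by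
  intro n x
  have := hz x x.2 n
  simpa [resH] using this

theorem conv_extH_comp [Fintype N] (f : N → ℂ) (e : G → ℂ) (γ : G ⧸ N) :
    conv (extH N f) (comp N e γ) = comp N (conv (extH N f) e) γ := by
  funext x
  unfold comp conv
  by_cases hx : (x : G ⧸ N) = γ
  · rw [if_pos hx]
    apply Finset.sum_congr rfl
    intro g _
    by_cases hg : g ∈ N
    · have : ((g⁻¹ * x : G) : G ⧸ N) = γ := by
        have hq1 : (g : G ⧸ N) = 1 := (QuotientGroup.eq_one_iff g).2 hg
        simp [hq1, hx]
      simp only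
      rw [if_pos this]
    · rw [extH_of_not_mem N _ hg, zero_mul, zero_mul]
  · rw [if_neg hx]
    apply Finset.sum_eq_zero
    intro g _
    by_cases hg : g ∈ N
    · have : ((g⁻¹ * x : G) : G ⧸ N) ≠ γ := by
        have hq1 : (g : G ⧸ N) = 1 := (QuotientGroup.eq_one_iff g).2 hg
        simpa [hq1] using hx
      simp only
      rw [if_neg this, mul_zero]
    · rw [extH_of_not_mem N _ hg, zero_mul]

end comp

section core

theorem memLocalIdeal_Om_of_vanish {H : Type u} [Group H] [Fintype H] (hM : IsPModular p M)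
    {b : Set (IrrCharacter H)} (hb : IsPBlock M b) {D : Subgroup H} (hD : IsDefectGroup p M b D)
    {c : H → ℂ} (hc : IsClassFunction H c) (hcS : ∀ g, MemLocalRing M (c g))
    (hv : ∀ k ∈ Subgroup.centralizer (D : Set H), MemLocalIdeal M (c k)) {θ : IrrCharacter H}
    (hθ : θ ∈ b) : MemLocalIdeal M (Om c θ) := by
  classical
  haveI := IsPModular.isPrime hM
  cases nonempty_fintype (ConjClasses H)
  rw [Om_eq_sum_centralChar hc]
  apply memLocalIdeal_sum
  intro K _
  by_cases h : MemLocalIdeal M (centralChar (θ : H → ℂ) K.out)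
  · exact memLocalIdeal_mul_left (hcS _) h
  · obtain ⟨k0, hk0, P, rfl⟩ := hD
    have hp : IsPGroup p ((P : Subgroup (Subgroup.centralizer ({k0} : Set H))).map
        (Subgroup.centralizer ({k0} : Set H)).subtype) := P.2.map _
    have hk0c : k0 ∈ Subgroup.centralizer (((P : Subgroup (Subgroup.centralizer ({k0} : Set H))).map
        (Subgroup.centralizer ({k0} : Set H)).subtype : Subgroup H) : Set H) := by
      rw [Subgroup.mem_centralizer_iff]
      intro d hd
      have h1 := map_subtype_le _ _ hd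
      rw [Subgroup.mem_centralizer_singleton_iff] at h1
      exact h1
    obtain ⟨x, hx, hxc⟩ := minmax_core hM hb ⟨θ, hθ, h⟩ hk0.2.1 _ hp hk0c
    rw [classFunction_eq_of_isConj hc hx]
    exact memLocalIdeal_mul_right (hv x hxc) (memLocalRing_centralChar θ _)

variable [Fintype G] (N : Subgroup G) [hN : N.Normal] [Fintype N]

theorem conv_extH_blockCoeff_of_covers [M.IsPrime] {b : Set (IrrCharacter N)} (hb : IsPBlock M b)
    (hinv : ∀ (θ : IrrCharacter N) (x : G), conjIrr N θ x ∈ b ↔ θ ∈ b)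
    {B : Set (IrrCharacter G)} (hB : IsPBlock M B) (hcov : Covers N B b) :
    conv (extH N (blockCoeff b)) (blockCoeff B) = blockCoeff B := by
  rw [extH_blockCoeff_eq N hinv]
  apply Om_injective (isClassFunction_conv (isClassFunction_blockCoeff _)
    (isClassFunction_blockCoeff _)) (isClassFunction_blockCoeff _)
  rw [Om_conv (isClassFunction_blockCoeff _), Om_blockCoeff, Om_blockCoeff]
  ext χ
  rw [Pi.mul_apply]
  by_cases hχ : χ ∈ B
  · have : χ ∈ overSet N b := over_of_covers N hb hB hcov hχ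
    rw [Set.indicator_of_mem hχ, Set.indicator_of_mem this, one_mul]
  · rw [Set.indicator_of_notMem hχ, mul_zero]

theorem exists_cpow_comp_memLocalIdeal [DecidableEq G] (hM : IsPModular p M)
    {b : Set (IrrCharacter N)} (hb : IsPBlock M b)
    (hinv : ∀ (θ : IrrCharacter N) (x : G), conjIrr N θ x ∈ b ↔ θ ∈ b)
    {B : Set (IrrCharacter G)} (hB : IsPBlock M B) (hcov : Covers N B b) {Q : Subgroup G}
    (hQN : Q ≤ N) (hQ : IsDefectGroup p M b (Q.subgroupOf N))
    (hv : ∀ k ∈ Subgroup.centralizer (Q : Set G), MemLocalIdeal M (blockCoeff B k))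
    (γ : G ⧸ N) :
    ∃ m, 1 ≤ m ∧ ∀ y, MemLocalIdeal M (cpow (comp N (blockCoeff B) γ) m y) := by
  classical
  haveI := IsPModular.isPrime hM
  set e := blockCoeff B with he_def
  set ε := comp N e γ with hε_def
  have he : IsClassFunction G e := isClassFunction_blockCoeff B
  have heS : ∀ g, MemLocalRing M (e g) := osima hB
  have hεS := memLocalRing_comp (M := M) N heS γ
  have hεinv : InvUnder N ε := invUnder_comp N he γ
  obtain ⟨q', hq'⟩ : ∃ q', Nat.card (G ⧸ N) = q' + 1 :=
    ⟨Nat.card (G ⧸ N) - 1, by have : 0 < Nat.card (G ⧸ N) := Nat.card_pos; omega⟩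
  set z := cpow ε (q' + 1) with hz_def
  have hzsupp : SuppOn N z 1 := by
    have h1 : γ ^ (q' + 1) = 1 := by rw [← hq']; exact pow_card_eq_one'
    have := suppOn_cpow N (suppOn_comp N e γ) (q' + 1)
    rw [h1] at this
    exact this
  have hzinv : InvUnder N z := invUnder_cpow hεinv _
  have hzS : ∀ g, MemLocalRing M (z g) := memLocalRing_cpow hεS _
  have hpQ : IsPGroup p Q :=
    (isPGroup_of_defectGroup hM hb hQ).of_equiv (Subgroup.subgroupOfEquivOfLe hQN)
  have hzv : ∀ k ∈ Subgroup.centralizer (Q : Set G), MemLocalIdeal M (z k) := by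
    intro k hk
    apply conv_vanish_left hM Q hpQ (hεinv.mono hQN) ((invUnder_cpow hεinv q').mono hQN) hεS
      (memLocalRing_cpow hεS q') _ hk
    intro x hx
    rw [hε_def]
    unfold comp
    split_ifs
    exacts [hv x hx, memLocalIdeal_zero]
  have hEe := conv_extH_blockCoeff_of_covers N hb hinv hB hcov
  have hEε : conv (extH N (blockCoeff b)) ε = ε := by rw [hε_def, conv_extH_comp, hEe]
  have hEz : conv (extH N (blockCoeff b)) z = z := by
    apply Lmat_injective
    rw [← Lmat_mul, hz_def, Lmat_cpow, pow_succ', ← mul_assoc, Lmat_mul, hEε]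
  set c := resH N z with hc_def
  have hzc : z = extH N c := eq_extH_of_suppOn N hzsupp
  have hcc : IsClassFunction N c := isClassFunction_resH_of_invUnder N hzinv
  have hcE : conv (blockCoeff b) c = c := by
    have h1 := hEz
    rw [hzc, conv_extH] at h1
    funext n
    have := congrFun h1 (n : G)
    rwa [extH_coe, extH_coe] at this
  have hOm : ∀ θ, MemLocalIdeal M (Om c θ) := by
    intro θ
    by_cases hθ : θ ∈ b
    · exact memLocalIdeal_Om_of_vanish hM hb hQ hcc (fun n => hzS n)
        (fun k hk => hzv k ((mem_centralizer_subgroupOf_iff k hQN).1 hk)) hθ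
    · rw [← hcE, Om_conv (isClassFunction_blockCoeff b), Om_blockCoeff, Pi.mul_apply,
        Set.indicator_of_notMem hθ, zero_mul]
      exact memLocalIdeal_zero
  obtain ⟨n', hn', hnil⟩ := exists_cpow_memLocalIdeal hcc (fun n => hzS n) hOm
  refine ⟨(q' + 1) * n', Nat.mul_pos (Nat.succ_pos _) hn', fun y => ?_⟩
  have e1 : cpow ε ((q' + 1) * n') = extH N (cpow c n') := by
    rw [← cpow_extH, ← hzc]
    apply Lmat_injective
    rw [Lmat_cpow, Lmat_cpow, hz_def, Lmat_cpow, pow_mul]
  rw [e1]
  by_cases hy : y ∈ N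
  · rw [extH_of_mem N _ hy]; exact hnil _
  · rw [extH_of_not_mem N _ hy]; exact memLocalIdeal_zero

/-- matrices with all entries in the ideal -/
def idealMat (G : Type u) (M : Ideal AlgInt) [M.IsPrime] : AddSubmonoid (Matrix G G ℂ) where
  carrier := {A | ∀ i j, MemLocalIdeal M (A i j)}
  add_mem' := fun ha hb i j => memLocalIdeal_add (ha i j) (hb i j)
  zero_mem' := fun _ _ => memLocalIdeal_zero

theorem wprod_Lmat [DecidableEq G] [M.IsPrime] {Γ : Type*} [Group Γ] (ε : Γ → G → ℂ)
    (hε : ∀ γ g, MemLocalRing M (ε γ g)) (l : List Γ) :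
    ∃ w : G → ℂ, (∀ g, MemLocalRing M (w g)) ∧ wprod (fun γ => Lmat (ε γ)) l = Lmat w := by
  induction l with
  | nil =>
    refine ⟨cpow (fun _ => 0) 0, memLocalRing_cpow (fun _ => memLocalRing_zero) 0, ?_⟩
    rw [Lmat_cpow, pow_zero, wprod_nil]
  | cons γ t ih =>
    obtain ⟨w, hw, e⟩ := ih
    exact ⟨conv (ε γ) w, memLocalRing_conv (hε γ) hw, by rw [wprod_cons, e, Lmat_mul]⟩

/-- **Knörr, key step**: if `B` covers the `G`-invariant block `b` with defect group `Q`, then the
block idempotent of `B` does not vanish (mod the ideal) on `C_G(Q)`. -/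
theorem exists_centralizer_not_memLocalIdeal (hM : IsPModular p M)
    {b : Set (IrrCharacter N)} (hb : IsPBlock M b)
    (hinv : ∀ (θ : IrrCharacter N) (x : G), conjIrr N θ x ∈ b ↔ θ ∈ b)
    {B : Set (IrrCharacter G)} (hB : IsPBlock M B) (hcov : Covers N B b) {Q : Subgroup G}
    (hQN : Q ≤ N) (hQ : IsDefectGroup p M b (Q.subgroupOf N)) :
    ∃ k ∈ Subgroup.centralizer (Q : Set G), ¬ MemLocalIdeal M (blockCoeff B k) := by
  classical
  haveI := IsPModular.isPrime hM
  by_contra hcon
  push Not at hcon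
  choose m hm1 hm using exists_cpow_comp_memLocalIdeal N hM hb hinv hB hcov hQN hQ hcon
  set e := blockCoeff B with he_def
  have he : IsClassFunction G e := isClassFunction_blockCoeff B
  have heS : ∀ g, MemLocalRing M (e g) := osima hB
  have hεS := memLocalRing_comp (M := M) N heS
  set n := ∑ γ, m γ with hn_def
  have hmn : ∀ γ, m γ ≤ n := fun γ =>
    Finset.single_le_sum (f := m) (fun _ _ => Nat.zero_le _) (Finset.mem_univ γ)
  have hn : 0 < n := lt_of_lt_of_le (hm1 1) (hmn 1)
  have key := pow_sum_mem (ε := fun γ => Lmat (comp N e γ))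
    (fun γ δ => by simp only [Lmat_mul]; rw [conv_comp_comm N he]) (idealMat G M) n hn (by
      intro γ l
      obtain ⟨w, hw, ew⟩ := wprod_Lmat (M := M) (fun γ => comp N e γ) hεS l
      rw [ew]
      obtain ⟨d, hd⟩ := Nat.exists_eq_add_of_le (hmn γ)
      rw [hd, pow_add, ← Lmat_cpow, ← Lmat_cpow, Lmat_mul, Lmat_mul]
      intro i j
      exact memLocalIdeal_conv_left (fun g => memLocalIdeal_conv_left (hm γ)
        (memLocalRing_cpow (hεS γ) d) g) hw _)
  rw [← Lmat_sum, sum_comp] at key
  have hpow : ∀ j : ℕ, 0 < j → (Lmat e) ^ j = Lmat e := by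
    intro j hj
    induction j with
    | zero => omega
    | succ j ih =>
      rcases Nat.eq_zero_or_pos j with rfl | hj'
      · simp
      · rw [pow_succ, ih hj', Lmat_mul, conv_blockCoeff]
  rw [hpow _ (Nat.mul_pos Fintype.card_pos hn)] at key
  obtain ⟨g, hg⟩ := exists_defectClass hB
  apply hg.2.1
  have := key g 1
  simpa [Lmat] using this

theorem exists_defectGroup_inf_le (hM : IsPModular p M)
    {b : Set (IrrCharacter N)} (hb : IsPBlock M b)
    (hinv : ∀ (θ : IrrCharacter N) (x : G), conjIrr N θ x ∈ b ↔ θ ∈ b)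
    {B : Set (IrrCharacter G)} (hB : IsPBlock M B) (hcov : Covers N B b) {P : Subgroup G}
    (hP : IsDefectGroup p M B P) :
    ∃ D : Subgroup N, IsDefectGroup p M b D ∧ (P ⊓ N).subgroupOf N ≤ D := by
  classical
  haveI := IsPModular.isPrime hM
  have hpP := isPGroup_of_defectGroup hM hB hP
  obtain ⟨k0, hk0, hk0c⟩ : ∃ k0, IsDefectClass M B k0 ∧
      k0 ∈ Subgroup.centralizer (P : Set G) := by
    obtain ⟨k0, hk0, S, rfl⟩ := hP
    refine ⟨k0, hk0, ?_⟩
    rw [Subgroup.mem_centralizer_iff]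
    intro d hd
    have h1 := map_subtype_le _ _ hd
    rw [Subgroup.mem_centralizer_singleton_iff] at h1
    exact h1
  have hEe := conv_extH_blockCoeff_of_covers N hb hinv hB hcov
  have hEc : IsClassFunction G (extH N (blockCoeff b)) := by
    rw [extH_blockCoeff_eq N hinv]; exact isClassFunction_blockCoeff _
  have hES : ∀ g, MemLocalRing M (extH N (blockCoeff b) g) := by
    intro g
    by_cases hg : g ∈ N
    · rw [extH_of_mem N _ hg]; exact osima hb _
    · rw [extH_of_not_mem N _ hg]; exact memLocalRing_zero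
  by_contra hcon
  push Not at hcon
  apply hk0.2.1
  rw [← hEe]
  apply conv_vanish_left hM P hpP (invUnder_of_class P hEc)
    (invUnder_of_class P (isClassFunction_blockCoeff B)) hES (osima hB) _ hk0c
  intro x hx
  by_cases hxN : x ∈ N
  · rw [extH_of_mem N _ hxN]
    by_contra hx2
    have hp2 : IsPGroup p ((P ⊓ N).subgroupOf N) :=
      (hpP.to_le inf_le_left).comap_subtype
    obtain ⟨D, hD, hle⟩ := exists_defectGroup_ge_of_blockCoeff hM hb hx2 ((P ⊓ N).subgroupOf N)
      hp2 (by
        intro y hy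
        rw [Subgroup.mem_centralizer_singleton_iff]
        have hyP : (y : G) ∈ P := (Subgroup.mem_subgroupOf.1 hy).1
        have := Subgroup.mem_centralizer_iff.1 hx y hyP
        apply Subtype.ext
        simpa using this)
    exact hcon D hD hle
  · rw [extH_of_not_mem N _ hxN]; exact memLocalIdeal_zero

/-- **Knörr's theorem**, invariant case. -/
theorem knorr_invariant (hM : IsPModular p M)
    {b : Set (IrrCharacter N)} (hb : IsPBlock M b)
    (hinv : ∀ (θ : IrrCharacter N) (x : G), conjIrr N θ x ∈ b ↔ θ ∈ b)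
    {B : Set (IrrCharacter G)} (hB : IsPBlock M B) (hcov : Covers N B b) {Q : Subgroup G}
    (hQN : Q ≤ N) (hQ : IsDefectGroup p M b (Q.subgroupOf N)) :
    ∃ P : Subgroup G, IsDefectGroup p M B P ∧ P ⊓ N = Q := by
  classical
  haveI := IsPModular.isPrime hM
  obtain ⟨k, hk, hk2⟩ := exists_centralizer_not_memLocalIdeal N hM hb hinv hB hcov hQN hQ
  have hpQ : IsPGroup p Q :=
    (isPGroup_of_defectGroup hM hb hQ).of_equiv (Subgroup.subgroupOfEquivOfLe hQN)
  obtain ⟨P, hP, hQP⟩ := exists_defectGroup_ge_of_blockCoeff hM hB hk2 Q hpQ (by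
    intro y hy
    rw [Subgroup.mem_centralizer_singleton_iff]
    exact Subgroup.mem_centralizer_iff.1 hk y hy)
  refine ⟨P, hP, ?_⟩
  obtain ⟨D, hD, hle⟩ := exists_defectGroup_inf_le N hM hb hinv hB hcov hP
  have hc1 := card_defectGroup hM hb hD
  have hc2 := card_defectGroup hM hb hQ
  have h1 : Q.subgroupOf N ≤ (P ⊓ N).subgroupOf N := by
    intro y hy
    exact ⟨hQP hy, y.2⟩
  have h2 : Q.subgroupOf N = D :=
    Subgroup.eq_of_le_of_card_ge (h1.trans hle) (by rw [hc1, hc2])
  apply le_antisymm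
  · intro y hy
    have : (⟨y, hy.2⟩ : N) ∈ Q.subgroupOf N := by
      rw [h2]
      exact hle hy
    exact this
  · exact le_inf hQP hQN

end core

section general
variable [Fintype G] (N : Subgroup G) [hN : N.Normal] [Fintype N]

/-- stabilizer of a set of irreducible characters of `N` -/
def blockStab (b : Set (IrrCharacter N)) : Subgroup G where
  carrier := {g | ∀ θ, conjIrr N θ g ∈ b ↔ θ ∈ b}
  mul_mem' := by
    intro x y hx hy θ
    rw [← conjIrr_conjIrr, hy, hx]
  one_mem' := by intro θ; rw [conjIrr_one]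
  inv_mem' := by
    intro x hx θ
    rw [← hx (conjIrr N θ x⁻¹), conjIrr_inv_cancel]

theorem mem_blockStab_iff [M.IsPrime] {b : Set (IrrCharacter N)} (hb : IsPBlock M b) (g : G) :
    g ∈ blockStab N b ↔ ∀ θ ∈ b, conjIrr N θ g ∈ b := by
  constructor
  · intro h θ hθ; exact (h θ).2 hθ
  · intro h θ
    refine ⟨fun h2 => ?_, h θ⟩
    obtain ⟨θ0, hθ0⟩ := isPBlock_nonempty hb
    have h3 := sameBlock_conjIrr N (sameBlock_of_mem hb (h θ0 hθ0) h2) g⁻¹
    rw [conjIrr_cancel_inv, conjIrr_cancel_inv] at h3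
    rw [isPBlock_eq_blockOf hb hθ0]
    exact mem_blockOf.2 h3

theorem le_blockStab (b : Set (IrrCharacter N)) : N ≤ blockStab N b := by
  intro x hx θ
  rw [conjIrr_of_mem N θ hx]

/-- **Knörr's theorem**: a block `B` covering `b` has a defect group `P` with `P ⊓ N` a prescribed
defect group of `b`. -/
theorem knorr [Fact p.Prime] (hM : IsPModular p M) {b : Set (IrrCharacter N)} (hb : IsPBlock M b)
    {B : Set (IrrCharacter G)} (hB : IsPBlock M B) (hcov : Covers N B b) {Q : Subgroup G}
    (hQN : Q ≤ N) (hQ : IsDefectGroup p M b (Q.subgroupOf N)) :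
    ∃ P : Subgroup G, IsDefectGroup p M B P ∧ P ⊓ N = Q := by
  classical
  haveI := IsPModular.isPrime hM
  set T := blockStab N b with hT_def
  haveI : Fintype T := Fintype.ofFinite _
  haveI : Fintype (N.subgroupOf T) := Fintype.ofFinite _
  have hT := mem_blockStab_iff N hb
  have hNT : N ≤ T := le_blockStab N b
  obtain ⟨χ, hχ, hov⟩ := hcov
  obtain ⟨η, hη, hc⟩ := fr_exists N T hNT hT hov
  have he := (fr_core N T hNT hb hT hη hc).1
  have hB' : IsPBlock M (blockOf M (η : T → ℂ)) := ⟨η, rfl⟩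
  have hcov' : ∃ ψ ∈ blockOf M (η : T → ℂ), Over N T hNT b (ψ : T → ℂ) :=
    ⟨η, self_mem_blockOf η, hη⟩
  obtain ⟨hall, B₁, hind, -, hmem⟩ := fr_block N T hNT hb hT hB' hcov'
  have h1 : χ ∈ B₁ := (hmem χ).2 ⟨η, self_mem_blockOf η, he⟩
  have e : B = B₁ := by rw [isPBlock_eq_blockOf hB hχ, isPBlock_eq_blockOf hind.2.1 h1]
  subst e
  have hinv : ∀ (θ : IrrCharacter (N.subgroupOf T)) (x : T),
      conjIrr (N.subgroupOf T) θ x ∈ towerBlock hNT b ↔ θ ∈ towerBlock hNT b := by
    intro θ x
    obtain ⟨θ0, rfl⟩ : ∃ θ0, θ = towerIrr hNT θ0 := ⟨_, (irrComap_irrComap_symm _ θ).symm⟩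
    rw [conjIrr_tower, irrComap_mem_blockComap, irrComap_mem_blockComap]
    exact stab_iff N T hT x.2 θ0
  have hQ' : IsDefectGroup p M (towerBlock hNT b)
      ((Q.subgroupOf T).subgroupOf (N.subgroupOf T)) := by
    have := isDefectGroup_blockComap (M := M) (p := p) (Subgroup.subgroupOfEquivOfLe hNT) hQ
    convert this using 1
    ext x
    rfl
  obtain ⟨P', hP', hPN⟩ := knorr_invariant (N.subgroupOf T) hM (isPBlock_blockComap _ hb) hinv hB'
    ((covers_tower_iff hNT b _).2 hcov') (Q := Q.subgroupOf T)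
    (fun y hy => hQN hy) hQ'
  refine ⟨P'.map T.subtype, defectGroup_indFun T hM hind hmem
    (fun ψ hψ => fr_irr N T hNT hb hT (hall ψ hψ)) hP', ?_⟩
  ext y
  constructor
  · rintro ⟨⟨t, ht, rfl⟩, hyN⟩
    have : t ∈ P' ⊓ N.subgroupOf T := ⟨ht, hyN⟩
    rw [hPN] at this
    exact this
  · intro hy
    have hyT : y ∈ T := hNT (hQN hy)
    have : (⟨y, hyT⟩ : T) ∈ P' ⊓ N.subgroupOf T := by rw [hPN]; exact hy
    exact ⟨⟨_, this.1, rfl⟩, hQN hy⟩

end general

end Cfsg.Agent.Lib.Helper7
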