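import Cfsg.Agent.Lib.Helper7.BlockUCover

set_option autoImplicit false
set_option linter.style.haveILetI false
set_option linter.unusedSectionVars false
open Cfsg
open scoped ComplexConjugate

namespace Cfsg.Agent.Lib.Helper7

universe u
variable {G : Type u} [Group G] {M : Ideal AlgInt} {p : ℕ}

/-- transitivity of "being a constituent of the restriction" -/
theorem constituent_trans {L : Type u} [Group L] [Fintype L] (K : Subgroup L) [Fintype K]
    {f : L → ℂ} (hf : IsCharacter L f) (θ : IrrCharacter K) :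
    classInner (fun k : K => f k) (θ : K → ℂ) ≠ 0 ↔
      ∃ ψ : IrrCharacter L, classInner f (ψ : L → ℂ) ≠ 0 ∧
        classInner (fun k : K => (ψ : L → ℂ) k) (θ : K → ℂ) ≠ 0 := by
  classical
  haveI : Fintype (IrrCharacter L) := Fintype.ofFinite _
  obtain ⟨m, hm, hfm⟩ := character_eq_sum_nat hf
  choose n hn using fun ψ : IrrCharacter L =>
    classInner_char_nat (isCharacter_restrict (isCharacter_of_irr ψ.2) K) (isCharacter_of_irr θ.2)
  have h1 : (fun k : K => f k) = ∑ ψ : IrrCharacter L, (m ψ : ℂ) • (fun k : K => (ψ : L → ℂ) k) := by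
    funext k
    conv_lhs => rw [hfm]
    simp [Finset.sum_apply]
  have h2 : classInner (fun k : K => f k) (θ : K → ℂ) = ((∑ ψ, m ψ * n ψ : ℕ) : ℂ) := by
    rw [h1, classInner_sum_left]
    push_cast
    apply Finset.sum_congr rfl
    intro ψ _
    rw [classInner_smul_left, hn]
  rw [h2, Nat.cast_ne_zero, Ne, Finset.sum_eq_zero_iff]
  push Not
  constructor
  · rintro ⟨ψ, -, hψ⟩
    refine ⟨ψ, ?_, ?_⟩
    · rw [hm, Nat.cast_ne_zero]; exact left_ne_zero_of_mul hψ
    · rw [hn, Nat.cast_ne_zero]; exact right_ne_zero_of_mul hψ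
  · rintro ⟨ψ, h3, h4⟩
    rw [hm, Nat.cast_ne_zero] at h3
    rw [hn, Nat.cast_ne_zero] at h4
    exact ⟨ψ, Finset.mem_univ _, Nat.mul_ne_zero h3 h4⟩

theorem constituent_tower [Fintype G] {K L : Subgroup G} (hKL : K ≤ L) [Fintype K] [Fintype L]
    (χ : IrrCharacter G) (θ : IrrCharacter K) :
    classInner (fun k : K => (χ : G → ℂ) k) (θ : K → ℂ) ≠ 0 ↔
      ∃ ψ : IrrCharacter L, classInner (fun l : L => (χ : G → ℂ) l) (ψ : L → ℂ) ≠ 0 ∧
        classInner (fun k : K => (ψ : L → ℂ) ⟨k, hKL k.2⟩) (θ : K → ℂ) ≠ 0 := by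
  haveI : Fintype (K.subgroupOf L) := Fintype.ofFinite _
  have h := constituent_trans (K.subgroupOf L)
    (isCharacter_restrict (isCharacter_of_irr χ.2) L) (towerIrr hKL θ)
  rw [classInner_tower hKL (fun l : L => (χ : G → ℂ) l) θ] at h
  rw [h]
  constructor
  · rintro ⟨ψ, h1, h2⟩
    rw [classInner_tower hKL (ψ : L → ℂ) θ] at h2
    exact ⟨ψ, h1, h2⟩
  · rintro ⟨ψ, h1, h2⟩
    rw [← classInner_tower hKL (ψ : L → ℂ) θ] at h2
    exact ⟨ψ, h1, h2⟩

/-- A block of full defect has exactly the Sylow subgroups as defect groups. -/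
theorem isDefectGroup_of_full_defect [Finite G] [Fact p.Prime] (hM : IsPModular p M)
    {B : Set (IrrCharacter G)} (hB : IsPBlock M B)
    (hd : blockDefect p B = (Nat.card G).factorization p) (S : Sylow p G) :
    IsDefectGroup p M B (S : Subgroup G) := by
  obtain ⟨D, hD⟩ := exists_defectGroup hM hB
  have hc := card_defectGroup hM hB hD
  rw [hd] at hc
  obtain ⟨g, hg⟩ := MulAction.exists_smul_eq G (Sylow.ofCard D hc) S
  have := Cfsg.Agent.Lib.Helper24.isDefectGroup_conj hD g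
  convert this using 1
  rw [← hg]
  rfl

theorem exists_sylow_of_full_defect [Finite G] [Fact p.Prime] (hM : IsPModular p M)
    {B : Set (IrrCharacter G)} (hB : IsPBlock M B)
    (hd : blockDefect p B = (Nat.card G).factorization p) {D : Subgroup G}
    (hD : IsDefectGroup p M B D) : ∃ S : Sylow p G, D = (S : Subgroup G) := by
  have hc := card_defectGroup hM hB hD
  rw [hd] at hc
  exact ⟨Sylow.ofCard D hc, rfl⟩

section pcons
variable [Fintype G] (K L : Subgroup G) [hK : K.Normal] [hL : L.Normal] [Fintype K] [Fintype L]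

theorem classInner_conjIrr_tower (hKL : K ≤ L) (ψ : IrrCharacter L) (θ : IrrCharacter K) (g : G) :
    classInner (fun k : K => (conjIrr L ψ g : L → ℂ) ⟨k, hKL k.2⟩) (conjIrr K θ g : K → ℂ)
      = classInner (fun k : K => (ψ : L → ℂ) ⟨k, hKL k.2⟩) (θ : K → ℂ) :=
  Cfsg.Agent.Lib.Helper25.classInner_conjFun_conjFun K
    (fun k : K => (ψ : L → ℂ) ⟨k, hKL k.2⟩) (θ : K → ℂ) g

/-- Blocks over an invariant character of a normal `p'`-subgroup `K`, when `L/K` is a normal
`p`-subgroup of `G/K` and a Sylow `p`-subgroup `Q` of `L` satisfies `C_G(Q) ≤ L`. -/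
theorem fong_pcons [Fact p.Prime] (hM : IsPModular p M) (hKL : K ≤ L) (hpK : ¬ p ∣ Nat.card K)
    (hidx : ∃ k : ℕ, K.relIndex L = p ^ k) {Q : Subgroup G} (hQL : Q ≤ L) (hQp : IsPGroup p Q)
    (hQS : ¬ p ∣ Q.relIndex L) (hCQ : Subgroup.centralizer (Q : Set G) ≤ L) (θ : IrrCharacter K)
    (hθ : ∀ g : G, conjIrr K θ g = θ) :
    ∃ B : Set (IrrCharacter G), IsPBlock M B ∧
      (∀ χ : IrrCharacter G, χ ∈ B ↔ classInner (fun k : K => (χ : G → ℂ) k) (θ : K → ℂ) ≠ 0) ∧
      blockDefect p B = (Nat.card G).factorization p := by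
  classical
  haveI := IsPModular.isPrime hM
  haveI : Fintype (K.subgroupOf L) := Fintype.ofFinite _
  have hbK : IsPBlock M ({θ} : Set (IrrCharacter K)) :=
    ⟨θ, (blockOf_eq_singleton_of_pPrime K hM hpK θ).symm⟩
  have hbK' : IsPBlock M (towerBlock hKL ({θ} : Set (IrrCharacter K))) :=
    isPBlock_blockComap _ hbK
  have hmemK' : ∀ θ' : IrrCharacter (K.subgroupOf L),
      θ' ∈ towerBlock hKL ({θ} : Set (IrrCharacter K)) ↔ θ' = towerIrr hKL θ := by
    intro θ'
    obtain ⟨θ0, rfl⟩ : ∃ θ0, θ' = towerIrr hKL θ0 := ⟨_, (irrComap_irrComap_symm _ θ').symm⟩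
    rw [irrComap_mem_blockComap, Set.mem_singleton_iff]
    exact ⟨fun h => by rw [h], fun h => irrComap_injective _ h⟩
  obtain ⟨ψ0, hψ0⟩ := exists_over (K.subgroupOf L) (towerIrr hKL θ)
  set bL := blockOf M (ψ0 : L → ℂ) with hbL_def
  have hbL : IsPBlock M bL := ⟨ψ0, rfl⟩
  have hcovL : Covers (K.subgroupOf L) bL (towerBlock hKL ({θ} : Set (IrrCharacter K))) :=
    ⟨ψ0, self_mem_blockOf ψ0, towerIrr hKL θ, (hmemK' _).2 rfl, hψ0⟩
  have huniqL : ∀ b' : Set (IrrCharacter L), IsPBlock M b' →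
      Covers (K.subgroupOf L) b' (towerBlock hKL ({θ} : Set (IrrCharacter K))) → b' = bL :=
    fun b' hb' hc' => eq_of_covers_of_index (K.subgroupOf L) hM hidx hbK' hb' hbL hc' hcovL
  have hmemL : ∀ ψ : IrrCharacter L, ψ ∈ bL ↔
      classInner (fun k : K => (ψ : L → ℂ) ⟨k, hKL k.2⟩) (θ : K → ℂ) ≠ 0 := by
    intro ψ
    rw [← classInner_tower hKL (ψ : L → ℂ) θ]
    constructor
    · intro hψ
      obtain ⟨θ', hθ', h1⟩ := over_of_covers (K.subgroupOf L) hbK' hbL hcovL hψ
      rw [(hmemK' θ').1 hθ'] at h1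
      exact h1
    · intro h1
      rw [← huniqL (blockOf M (ψ : L → ℂ)) ⟨ψ, rfl⟩
        ⟨ψ, self_mem_blockOf ψ, towerIrr hKL θ, (hmemK' _).2 rfl, h1⟩]
      exact self_mem_blockOf ψ
  have hinvL : ∀ (ψ : IrrCharacter L) (x : G), conjIrr L ψ x ∈ bL ↔ ψ ∈ bL := by
    intro ψ x
    rw [hmemL, hmemL, ← classInner_conjIrr_tower K L hKL ψ θ x, hθ x]
  have hinvK' : ∀ (θ' : IrrCharacter (K.subgroupOf L)) (x : L),
      conjIrr (K.subgroupOf L) θ' x ∈ towerBlock hKL ({θ} : Set (IrrCharacter K)) ↔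
        θ' ∈ towerBlock hKL ({θ} : Set (IrrCharacter K)) := by
    intro θ' x
    obtain ⟨θ0, rfl⟩ : ∃ θ0, θ' = towerIrr hKL θ0 := ⟨_, (irrComap_irrComap_symm _ θ').symm⟩
    rw [conjIrr_tower, irrComap_mem_blockComap, irrComap_mem_blockComap, Set.mem_singleton_iff,
      Set.mem_singleton_iff]
    constructor
    · intro h
      have h2 : conjIrr K (conjIrr K θ0 (x : G)) (x : G)⁻¹ = conjIrr K θ (x : G)⁻¹ := by rw [h]
      rw [conjIrr_cancel_inv, hθ] at h2
      exact h2
    · intro h; rw [h, hθ]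
  -- the defect of `bL`
  have hcardL : Nat.card K * K.relIndex L = Nat.card L := by
    rw [← card_subgroupOf_of_le hKL]
    exact Subgroup.card_mul_index (K.subgroupOf L)
  have hνK : (Nat.card K).factorization p = 0 := Nat.factorization_eq_zero_of_not_dvd hpK
  have hdL : blockDefect p bL = (Nat.card L).factorization p := by
    obtain ⟨P, hP⟩ := exists_defectGroup hM hbL
    have h1 := (fong (K.subgroupOf L) hM hbK' hinvK' hbL hcovL
      (fun b' hb' hc' => by rw [huniqL b' hb' hc']) hP).2.2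
    have h2 : blockDefect p (towerBlock hKL ({θ} : Set (IrrCharacter K))) = 0 := by
      rw [blockDefect_blockComap]
      unfold blockDefect
      rw [hνK, Nat.zero_sub]
    have h3 : K.relIndex L ≠ 0 := by
      obtain ⟨k, hk⟩ := hidx
      rw [hk]
      exact pow_ne_zero _ hM.1.ne_zero
    rw [h1, h2, zero_add, ← hcardL, Nat.factorization_mul Nat.card_pos.ne' h3, Finsupp.add_apply,
      hνK, zero_add]
    rfl
  have hQdef : IsDefectGroup p M bL (Q.subgroupOf L) := by
    have hp' : IsPGroup p (Q.subgroupOf L) := hQp.comap_subtype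
    exact isDefectGroup_of_full_defect hM hbL hdL (hp'.toSylow hQS)
  -- the block of `G`
  obtain ⟨χ0, hχ0⟩ := exists_over L ψ0
  set B := blockOf M (χ0 : G → ℂ) with hB_def
  have hB : IsPBlock M B := ⟨χ0, rfl⟩
  have hcov : Covers L B bL := ⟨χ0, self_mem_blockOf χ0, ψ0, self_mem_blockOf ψ0, hχ0⟩
  have huniq : ∀ B' : Set (IrrCharacter G), IsPBlock M B' → Covers L B' bL → B' = B :=
    fun B' hB' hc' => eq_of_covers_of_centralizer_le L hM hbL hQL hQdef hCQ hB' hB hc' hcov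
  refine ⟨B, hB, ?_, ?_⟩
  · intro χ
    rw [constituent_tower hKL χ θ]
    constructor
    · intro hχ
      obtain ⟨ψ, hψ, h1⟩ := over_of_covers L hbL hB hcov hχ
      exact ⟨ψ, h1, (hmemL ψ).1 hψ⟩
    · rintro ⟨ψ, h1, h2⟩
      rw [← huniq (blockOf M (χ : G → ℂ)) ⟨χ, rfl⟩
        ⟨χ, self_mem_blockOf χ, ψ, (hmemL ψ).2 h2, h1⟩]
      exact self_mem_blockOf χ
  · obtain ⟨P, hP⟩ := exists_defectGroup hM hB
    have h1 := (fong L hM hbL hinvL hB hcov (fun B' hB' hc' => by rw [huniq B' hB' hc']) hP).2.2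
    rw [h1, hdL, ← Subgroup.card_mul_index L, Nat.factorization_mul Nat.card_pos.ne'
      (Subgroup.index_ne_zero_of_finite), Finsupp.add_apply]

end pcons

end Cfsg.Agent.Lib.Helper7
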