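import Cfsg.Agent.Lib.Helper7.BlockPCons
import Cfsg.Agent.Lib.Helper5.PConstrained

set_option autoImplicit false
set_option linter.style.haveILetI false
set_option linter.unusedSectionVars false
open Cfsg
open scoped ComplexConjugate

namespace Cfsg.Agent.Lib.Helper7

universe u
variable {G : Type u} [Group G] {M : Ideal AlgInt} {p : ℕ}

theorem pPrimePCore_normal' (p : ℕ) (G : Type u) [Group G] : (pPrimePCore p G).Normal := by
  unfold pPrimePCore
  infer_instance

theorem relIndex_pPrimeCore_pPrimePCore [Finite G] [Fact p.Prime] :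
    ∃ k : ℕ, (pPrimeCore p G).relIndex (pPrimePCore p G) = p ^ k := by
  have h1 : pPrimeCore p G = (⊥ : Subgroup (G ⧸ pPrimeCore p G)).comap
      (QuotientGroup.mk' (pPrimeCore p G)) := by
    rw [MonoidHom.comap_bot, QuotientGroup.ker_mk']
  have h2 : (pPrimeCore p G).relIndex (pPrimePCore p G)
      = Nat.card (pCore p (G ⧸ pPrimeCore p G)) := by
    conv_lhs => rw [h1]
    rw [Subgroup.relIndex_comap, Cfsg.Agent.Lib.Helper5.pPrimePCore_map,
      Subgroup.relIndex_bot_left]
  rw [h2]
  exact (IsPGroup.iff_card).1 Cfsg.Agent.Lib.Helper5.pCore_isPGroup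

theorem not_dvd_card_pPrimeCore_pc [Finite G] (hp : p.Prime) : ¬ p ∣ Nat.card (pPrimeCore p G) := by
  intro h
  have := (Cfsg.Agent.Lib.Helper5.pPrimeCore_coprime (p := p) (G := G))
  exact hp.one_lt.ne' (Nat.eq_one_of_dvd_coprimes this h dvd_rfl)

theorem isPConstrained_of_isPSolvable [Finite G] [Fact p.Prime] (h : IsPSolvable p G) :
    IsPConstrained p G :=
  Cfsg.Agent.Lib.Helper5.isPConstrained_iff.2
    (Cfsg.Agent.Lib.Helper5.centralizer_pCore_le
      (Cfsg.Agent.Lib.Helper5.isPSolvable_of_surjective (QuotientGroup.mk' _)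
        (QuotientGroup.mk'_surjective _) h)
      Cfsg.Agent.Lib.Helper5.pPrimeCore_quot_pPrimeCore)

/-- Fong: over a `G`-invariant character of `O_{p'}(G)`, `G` `p`-constrained, there is exactly one
block, and it has full defect. -/
theorem fong_pconstrained [Fintype G] [Fact p.Prime] (hM : IsPModular p M) (K : Subgroup G)
    [hK : K.Normal] [Fintype K] (hKdef : K = pPrimeCore p G) {Q : Subgroup G}
    (hQL : Q ≤ pPrimePCore p G) (hQp : IsPGroup p Q) (hQS : ¬ p ∣ Q.relIndex (pPrimePCore p G))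
    (hCQ : Subgroup.centralizer (Q : Set G) ≤ pPrimePCore p G) (θ : IrrCharacter K)
    (hθ : ∀ g : G, conjIrr K θ g = θ) :
    ∃ B : Set (IrrCharacter G), IsPBlock M B ∧
      (∀ χ : IrrCharacter G, χ ∈ B ↔ classInner (fun k : K => (χ : G → ℂ) k) (θ : K → ℂ) ≠ 0) ∧
      blockDefect p B = (Nat.card G).factorization p := by
  classical
  subst hKdef
  haveI := pPrimePCore_normal' p G
  haveI : Fintype (pPrimePCore p G) := Fintype.ofFinite _
  exact fong_pcons (pPrimeCore p G) (pPrimePCore p G) hM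
    Cfsg.Agent.Lib.Helper5.pPrimeCore_le_pPrimePCore (not_dvd_card_pPrimeCore_pc hM.1)
    relIndex_pPrimeCore_pPrimePCore hQL hQp hQS hCQ θ hθ

end Cfsg.Agent.Lib.Helper7
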