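import Cfsg.Agent.Lib.Helper7.BlockKnorr
import Cfsg.Agent.Lib.Helper7.BlockFongGen

set_option autoImplicit false
set_option linter.style.haveILetI false
set_option linter.unusedSectionVars false
open Cfsg
open scoped ComplexConjugate

namespace Cfsg.Agent.Lib.Helper7

universe u
variable {G : Type u} [Group G] {M : Ideal AlgInt} {p : ℕ}

theorem exists_defectClass_centralizer {B : Set (IrrCharacter G)} {P : Subgroup G}
    (hP : IsDefectGroup p M B P) :
    ∃ k0, IsDefectClass M B k0 ∧ k0 ∈ Subgroup.centralizer (P : Set G) := by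
  obtain ⟨k0, hk0, S, rfl⟩ := hP
  refine ⟨k0, hk0, ?_⟩
  rw [Subgroup.mem_centralizer_iff]
  intro d hd
  have h1 := map_subtype_le _ _ hd
  rw [Subgroup.mem_centralizer_singleton_iff] at h1
  exact h1

theorem inducedCentralChar_of_not_mem (N : Subgroup G) [hN : N.Normal] (ξ : N → ℂ) {g : G}
    (hg : g ∉ N) : inducedCentralChar N ξ g = 0 := by
  unfold inducedCentralChar
  have : {h : N | IsConj g (h : G)} = ∅ := by
    ext h
    simp only [Set.mem_ofPred_eq, Set.mem_empty_iff_false, iff_false]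
    intro hc
    obtain ⟨c, hc'⟩ := isConj_iff.1 hc
    apply hg
    have : g = c⁻¹ * (h : G) * c⁻¹⁻¹ := by rw [← hc']; group
    rw [this]
    exact hN.conj_mem _ h.2 _
  rw [this]
  simp

section ucover
variable [Fintype G] (N : Subgroup G) [hN : N.Normal] [Fintype N]

theorem centralChar_vanish_outside [Fact p.Prime] (hM : IsPModular p M)
    {b : Set (IrrCharacter N)} (hb : IsPBlock M b) {Q : Subgroup G} (hQN : Q ≤ N)
    (hQ : IsDefectGroup p M b (Q.subgroupOf N)) (hC : Subgroup.centralizer (Q : Set G) ≤ N)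
    {B : Set (IrrCharacter G)} (hB : IsPBlock M B) (hc : Covers N B b) {χ : IrrCharacter G}
    (hχ : χ ∈ B) {g : G} (hg : g ∉ N) : MemLocalIdeal M (centralChar (χ : G → ℂ) g) := by
  haveI := IsPModular.isPrime hM
  by_contra hcon
  obtain ⟨P, hP, hPN⟩ := knorr N hM hb hB hc hQN hQ
  have hpQ : IsPGroup p Q :=
    (isPGroup_of_defectGroup hM hb hQ).of_equiv (Subgroup.subgroupOfEquivOfLe hQN)
  obtain ⟨k0, hk0, hk0c⟩ := exists_defectClass_centralizer hP
  have hQP : Q ≤ P := hPN ▸ inf_le_left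
  obtain ⟨x, hx, hxc⟩ := minmax_core hM hB ⟨χ, hχ, hcon⟩ hk0.2.1 Q hpQ
    (Subgroup.centralizer_le hQP hk0c)
  have hxN := hC hxc
  obtain ⟨c, hc'⟩ := isConj_iff.1 hx
  apply hg
  have : g = c⁻¹ * x * c⁻¹⁻¹ := by rw [← hc']; group
  rw [this]
  exact hN.conj_mem _ hxN _

/-- If `C_G(Q) ≤ N` for a defect group `Q` of the block `b` of `N ⊴ G`, every block covering `b` is
the induced block `b^G`. -/
theorem isInducedBlock_of_covers_of_centralizer_le [Fact p.Prime] (hM : IsPModular p M)
    {b : Set (IrrCharacter N)} (hb : IsPBlock M b) {Q : Subgroup G} (hQN : Q ≤ N)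
    (hQ : IsDefectGroup p M b (Q.subgroupOf N)) (hC : Subgroup.centralizer (Q : Set G) ≤ N)
    {B : Set (IrrCharacter G)} (hB : IsPBlock M B) (hc : Covers N B b) :
    IsInducedBlock M N b B := by
  haveI := IsPModular.isPrime hM
  refine ⟨hb, hB, fun ξ hξ χ hχ g => ?_⟩
  by_cases hg : g ∈ N
  · have := cover_congr N hB hb hc hχ hξ ⟨g, hg⟩
    have h2 := memLocalIdeal_neg this
    rwa [neg_sub] at h2
  · rw [inducedCentralChar_of_not_mem N _ hg, zero_sub]
    exact memLocalIdeal_neg (centralChar_vanish_outside N hM hb hQN hQ hC hB hc hχ hg)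

theorem eq_of_covers_of_centralizer_le [Fact p.Prime] (hM : IsPModular p M)
    {b : Set (IrrCharacter N)} (hb : IsPBlock M b) {Q : Subgroup G} (hQN : Q ≤ N)
    (hQ : IsDefectGroup p M b (Q.subgroupOf N)) (hC : Subgroup.centralizer (Q : Set G) ≤ N)
    {B B' : Set (IrrCharacter G)} (hB : IsPBlock M B) (hB' : IsPBlock M B')
    (hc : Covers N B b) (hc' : Covers N B' b) : B = B' := by
  haveI := IsPModular.isPrime hM
  exact Cfsg.Agent.Lib.Helper24.induced_unique
    (isInducedBlock_of_covers_of_centralizer_le N hM hb hQN hQ hC hB hc)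
    (isInducedBlock_of_covers_of_centralizer_le N hM hb hQN hQ hC hB' hc')

end ucover

end Cfsg.Agent.Lib.Helper7
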