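import Mathlib

set_option autoImplicit false

namespace Cfsg.Agent.Lib.Helper7

section words
variable {𝒜 : Type*} [Ring 𝒜] {Γ : Type*} [Group Γ] (ε : Γ → 𝒜)

/-- product of a word -/
def wprod (l : List Γ) : 𝒜 := (l.map ε).prod

theorem wprod_nil : wprod ε [] = 1 := rfl

theorem wprod_cons (γ : Γ) (l : List Γ) : wprod ε (γ :: l) = ε γ * wprod ε l := by
  simp [wprod]

theorem wprod_append (l l' : List Γ) : wprod ε (l ++ l') = wprod ε l * wprod ε l' := by
  simp [wprod]

/-- number of letters whose index, conjugated by the prefix, equals `v` -/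
def wcnt [DecidableEq Γ] (v : Γ) : Γ → List Γ → ℕ
  | _, [] => 0
  | acc, γ :: l => (if acc * γ * acc⁻¹ = v then 1 else 0) + wcnt v (acc * γ) l

variable {ε}

theorem comm_pow (hε : ∀ γ δ, ε γ * ε δ = ε (γ * δ * γ⁻¹) * ε γ) (γ δ : Γ) (k : ℕ) :
    ε γ * ε δ ^ k = ε (γ * δ * γ⁻¹) ^ k * ε γ := by
  induction k with
  | zero => simp
  | succ k ih => rw [pow_succ, ← mul_assoc, ih, mul_assoc, hε, ← mul_assoc, ← pow_succ]

theorem wprod_eq [DecidableEq Γ] (hε : ∀ γ δ, ε γ * ε δ = ε (γ * δ * γ⁻¹) * ε γ) (v : Γ) :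
    ∀ (l : List Γ) (acc : Γ) (k : ℕ), k ≤ wcnt v acc l →
      ∃ l' : List Γ, wprod ε l = ε (acc⁻¹ * v * acc) ^ k * wprod ε l' := by
  intro l
  induction l with
  | nil =>
    intro acc k hk
    have : k = 0 := by simpa [wcnt] using hk
    subst this
    exact ⟨[], by simp⟩
  | cons γ t ih =>
    intro acc k hk
    by_cases h : acc * γ * acc⁻¹ = v
    · rcases k with _ | k'
      · exact ⟨γ :: t, by simp⟩
      · have hk' : k' ≤ wcnt v (acc * γ) t := by
          simp only [wcnt, if_pos h] at hk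
          omega
        obtain ⟨l', hl'⟩ := ih (acc * γ) k' hk'
        have e1 : acc⁻¹ * v * acc = γ := by rw [← h]; group
        have e2 : (acc * γ)⁻¹ * v * (acc * γ) = γ := by rw [← h]; group
        refine ⟨l', ?_⟩
        rw [wprod_cons, hl', e1, e2, ← mul_assoc, ← pow_succ']
    · have hk' : k ≤ wcnt v (acc * γ) t := by
        simp only [wcnt, if_neg h] at hk
        omega
      obtain ⟨l', hl'⟩ := ih (acc * γ) k hk'
      refine ⟨γ :: l', ?_⟩
      rw [wprod_cons, hl', ← mul_assoc, comm_pow hε, wprod_cons, mul_assoc]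
      congr 2
      congr 1
      group

theorem sum_wcnt [DecidableEq Γ] [Fintype Γ] (l : List Γ) :
    ∀ acc : Γ, ∑ v : Γ, wcnt v acc l = l.length := by
  induction l with
  | nil => intro acc; simp [wcnt]
  | cons γ t ih =>
    intro acc
    simp only [wcnt, Finset.sum_add_distrib, ih, List.length_cons]
    simp [add_comm]

theorem exists_le_wcnt [DecidableEq Γ] [Fintype Γ] (n : ℕ) (l : List Γ)
    (hl : Fintype.card Γ * n ≤ l.length) (hn : 0 < n) : ∃ v : Γ, n ≤ wcnt v 1 l := by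
  by_contra hcon
  push Not at hcon
  have h1 : ∑ v : Γ, wcnt v 1 l < ∑ _v : Γ, n :=
    Finset.sum_lt_sum_of_nonempty ⟨1, Finset.mem_univ _⟩ (fun v _ => hcon v)
  rw [sum_wcnt, Finset.sum_const, Finset.card_univ, smul_eq_mul] at h1
  omega

theorem pow_sum_mul_mem [Fintype Γ] (J : AddSubmonoid 𝒜) :
    ∀ (j : ℕ) (x : 𝒜), (∀ l : List Γ, l.length = j → wprod ε l * x ∈ J) →
      (∑ γ, ε γ) ^ j * x ∈ J := by
  intro j
  induction j with
  | zero =>
    intro x h
    have := h [] rfl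
    simpa [wprod] using this
  | succ j ih =>
    intro x h
    rw [pow_succ, mul_assoc, Finset.sum_mul, Finset.mul_sum]
    apply J.sum_mem
    intro γ _
    apply ih
    intro l hl
    have := h (l ++ [γ]) (by simp [hl])
    rw [wprod_append] at this
    simpa [wprod, mul_assoc] using this

/-- If the `ε γ` quasi-commute and their `n`-th powers times words lie in `J`, then a power of their
sum lies in `J`. -/
theorem pow_sum_mem [Fintype Γ] (hε : ∀ γ δ, ε γ * ε δ = ε (γ * δ * γ⁻¹) * ε γ)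
    (J : AddSubmonoid 𝒜) (n : ℕ) (hn : 0 < n)
    (hJ : ∀ (γ : Γ) (l : List Γ), ε γ ^ n * wprod ε l ∈ J) :
    (∑ γ, ε γ) ^ (Fintype.card Γ * n) ∈ J := by
  classical
  have := pow_sum_mul_mem (ε := ε) J (Fintype.card Γ * n) 1 (by
    intro l hl
    obtain ⟨v, hv⟩ := exists_le_wcnt n l hl.ge hn
    obtain ⟨l', hl'⟩ := wprod_eq hε v l 1 n hv
    rw [mul_one, hl']
    exact hJ _ _)
  rwa [mul_one] at this

end words

end Cfsg.Agent.Lib.Helper7
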